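import Cfsg.Agent.AutOrthMinus.BalanceField

/-! Failure of local balance at automorphisms of `PΩ⁻` that are not inner-diagonal. -/

set_option autoImplicit false
set_option linter.unusedSectionVars false

namespace CfsgLib.AutOrthMinus.Balance

open Cfsg Cfsg.Geo CfsgLib.OrthGeo CfsgLib.AutOrth CfsgLib.AutOrthMinus Module
open CfsgLib.AutOrthField (Sim SigmaInv mapP)
open CfsgLib.AutOrth.Transport
open scoped Matrix MatrixGroups

universe u

variable {F : Type u} [Field F] [Fintype F] {m : ℕ} {a b : F}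
variable (hm : 3 ≤ m) (hab : ∀ x y : F, x ^ 2 + a * x * y + b * y ^ 2 = 0 → x = 0 ∧ y = 0)
include hm hab

local notation "Q₀" => quadFormMinus m F a b

omit hm hab in
/-- An irreducible `t² + t + c` over the fixed field of an automorphism of odd order stays irreducible. -/
lemma anisotropic_of_fixed {F₀ : Type u} [Field F₀] (f : F₀ →+* F) {σ : RingAut F}
    (he : ∀ t, σ t = t ↔ ∃ y, f y = t) {p : ℕ} (hp : Odd p) (hσp : σ ^ p = 1) {c : F₀}
    (hc : ∀ t : F₀, t ^ 2 + t + c ≠ 0) :
    ∀ x y : F, x ^ 2 + f 1 * x * y + f c * y ^ 2 = 0 → x = 0 ∧ y = 0 := by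
  intro x y hxy
  by_cases hy : y = 0
  · subst hy
    simpa using hxy
  exfalso
  set t := x / y with ht
  have hroot : t ^ 2 + t + f c = 0 := by
    rw [ht]
    rw [map_one, one_mul] at hxy
    field_simp
    linear_combination hxy
  have hσc : σ (f c) = f c := (he _).2 ⟨c, rfl⟩
  have hroot' : (σ t) ^ 2 + σ t + f c = 0 := by
    have := congrArg σ hroot
    rwa [map_add, map_add, map_pow, hσc, map_zero] at this
  have hfix : σ t = t := by
    have hprod : (σ t - t) * (σ t + t + 1) = 0 := by linear_combination hroot' - hroot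
    rcases mul_eq_zero.1 hprod with h | h
    · exact sub_eq_zero.1 h
    · have h2 : (σ ^ 2) t = t := by
        rw [sq, RingAut.mul_apply, show σ t = -t - 1 by linear_combination h, map_sub, map_neg, map_one]
        linear_combination -h
      have hk : ∀ k : ℕ, (σ ^ (2 * k)) t = t := by
        intro k
        induction k with
        | zero => rw [Nat.mul_zero, pow_zero]; rfl
        | succ k ih => rw [Nat.mul_succ, pow_add, RingAut.mul_apply, h2, ih]
      obtain ⟨k, rfl⟩ := hp
      have h3 : (σ ^ (2 * k + 1)) t = t := by rw [hσp]; rfl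
      rw [pow_succ', RingAut.mul_apply, hk] at h3
      exact h3
  obtain ⟨s, hs⟩ := (he _).1 hfix
  exact hc s (f.injective (by rw [map_add, map_add, map_pow, hs, hroot, map_zero]))

omit hm hab in
/-- A semisimilarity of finite order is conjugate to its field part. -/
lemma exists_conj_mapP {ι : Type} [Fintype ι] [DecidableEq ι] [Nonempty ι] {Q : (ι → F) → F}
    (hQ : IsNondegenerateQuadraticForm Q) (hn : 5 ≤ Fintype.card ι) {σ : RingAut F} (hσ : SigmaInv Q σ) {p : ℕ}
    (hr : orderOf σ = p) (hr0 : 0 < p) (hd : AutOrthField.HasDescent hσ p) {G : GL ι F}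
    (hG : G ∈ quadSimilarityGroup Q) (h : IsSemisimilarityPair Q G σ) (hord : orderOf (twistP h) = p) :
    ∃ γ : MulAut (POmega F Q), twistP h = γ * mapP hσ * γ⁻¹ := by
  have hdec := AutOrthField.conjS_mul_mapP hσ ⟨G, hG⟩ h
  obtain ⟨g, hg⟩ := AutOrthField.exists_twist_conj hQ hn hσ hr hr0 hd ⟨G, hG⟩
    (by rw [hdec, ← hord, pow_orderOf_eq_one])
  exact ⟨conjS Q g, hdec.symm.trans hg⟩

omit hm hab in
/-- Conjugating the target of an equivariant isomorphism. -/
lemma exists_equivariant {K K' : Type*} [Group K] [Group K'] (e : K ≃* K') (x : MulAut K) (x' y γ : MulAut K')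
    (hx : ∀ k, e (x k) = x' (e k)) (hy : x' = γ * y * γ⁻¹) : ∃ Ψ : K ≃* K', ∀ k, Ψ (x k) = y (Ψ k) := by
  subst hy
  refine ⟨e.trans γ⁻¹, fun k => ?_⟩
  show γ⁻¹ (e (x k)) = y (γ⁻¹ (e k))
  rw [hx, ← MulAut.mul_apply, ← MulAut.mul_apply, ← mul_assoc, ← mul_assoc, inv_mul_cancel, one_mul]

set_option maxHeartbeats 1000000 in
/-- The criterion. -/
theorem criterion {r : ℕ} [Fact r.Prime] [CharP F r] (A : Subgroup (MulAut (POmega F Q₀)))
    (hinn : ∀ k, MulAut.conj k ∈ A) {p : ℕ} [Fact p.Prime] (hpr : p ≠ r) {x : MulAut (POmega F Q₀)}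
    (hord : orderOf x = p) (hnot : ¬ IsInnerDiagonalAutPOmegaMinus m a b x) :
    pPrimeCore p ↥(A ⊓ Subgroup.centralizer {x}) ≠ ⊥ ↔ (IsFieldAutClassPOmegaMinus m x ∧
      Nat.Coprime p (Nat.card ↥(MonoidHom.eqLocus x.toMonoidHom (MonoidHom.id (POmega F Q₀))))) := by
  have hp : p.Prime := Fact.out
  have hr : r.Prime := Fact.out
  have : Nonempty (Idx m) := ⟨.inr 0⟩
  have h2 : p = 2 → (2 : F) ≠ 0 := fun hp2 e => hpr (by
    rw [hp2]
    exact (((Nat.prime_dvd_prime_iff_eq hr Nat.prime_two).1 ((CharP.cast_eq_zero_iff F r 2).1 (by exact_mod_cast e))).symm))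
  set hQ := hQm hab (m := m)
  obtain ⟨G, σ, h, rfl, hσp⟩ := exists_semi hm hab hord
  rcases (Nat.dvd_prime hp).1 (orderOf_dvd_of_pow_eq_one hσp) with h1 | h1
  · obtain rfl := orderOf_eq_one_iff.1 h1
    have hG : G ∈ quadSimilarityGroup Q₀ := by
      obtain ⟨c, hc⟩ := semisim_exists h
      exact ⟨c, hc⟩
    have hx : twistP h = conjS Q₀ ⟨G, hG⟩ := twistP_congr h (pair_of_mem_similarity hG) rfl rfl
    have hnp : ¬ PreservesSingularClassesMinus m a b (G : Matrix (Idx m) (Idx m) F) := fun hh =>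
      hnot (hx ▸ innerDiag_of_preserves hm hab ⟨G, hG⟩ hh)
    rcases hp.eq_two_or_odd' with hp2 | hodd
    · subst hp2
      refine iff_of_false (fun hne => hne ?_) (fun hh => not_fieldClass_of_two hm hab (h2 rfl) hord hh.1)
      rw [hx] at hord ⊢
      exact core_eq_bot_two hm hab (h2 rfl) ⟨G, hG⟩ hnp A hinn hord
    · refine absurd ?_ hnp
      have h3 : conjS Q₀ (⟨G, hG⟩ ^ p) = 1 := by rw [map_pow, ← hx, ← hord, pow_orderOf_eq_one]
      obtain ⟨c, hc⟩ := scalar_of_conjS_eq_one hQ (by simp; omega) h3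
      exact preserves_of_odd_pow hab (g := ⟨G, hG⟩) hodd hc
  · rcases hp.eq_two_or_odd' with hp2 | hodd
    · subst hp2
      have hx2 := pow_orderOf_eq_one (twistP h)
      rw [hord] at hx2
      exact (field_part_ne_two hm hab (h2 rfl) h hx2 h1).elim
    · have he := AutOrthField.exists_eqLocus σ
      let f := ((σ : F →+* F).eqLocusField (RingHom.id F)).subtype
      letI : Fintype ((σ : F →+* F).eqLocusField (RingHom.id F)) := Fintype.ofFinite _
      obtain ⟨c, hc⟩ := AutOrthField.exists_no_root (F := ((σ : F →+* F).eqLocusField (RingHom.id F)))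
      have hab' := anisotropic_of_fixed f he hodd hσp hc
      set hQ' := hQm hab' (m := m)
      have hn : Fintype.card (Idx m) = 2 * (m + 1) := by simp; omega
      obtain ⟨P, hP⟩ := AutOrthField.exists_gl_isometry hQ hQ' hn
        ⟨fun ⟨U, hU, hU0⟩ => absurd (hU.symm.trans_le (finrank_singular_le hm hab hU0)) (Nat.not_succ_le_self m),
          fun ⟨U, hU, hU0⟩ => absurd (hU.symm.trans_le (finrank_singular_le hm hab' hU0)) (Nat.not_succ_le_self m)⟩
      have hσi := sigmaInv_fix (m := m) f hm hab' he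
      have h' := pair_transport hP h
      have hG' : P * G * (mapGL σ P)⁻¹ ∈ quadSimilarityGroup (quadFormMinus m F (f 1) (f c)) := by
        obtain ⟨d, hd⟩ := semisim_exists h'
        refine ⟨d, fun v => ?_⟩
        obtain ⟨w, rfl⟩ : ∃ w : Idx m → F, v = fun i => σ (w i) := ⟨fun i => σ.symm (v i), by funext i; simp⟩
        rw [hσi w]
        exact hd w
      obtain ⟨-, -, -, -, hord'⟩ := criterion_iff (pOmEquiv hP) p _ (twistP h') (pOmEquiv_twistP hP h) A
      obtain ⟨γ, hΦ⟩ := exists_conj_mapP hQ' (by simp; omega) hσi h1 hp.pos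
        (AutOrthField.hasDescent_even hQ' hn hσi h1 hodd) hG' h' (hord'.symm.trans hord)
      obtain ⟨Ψ, hΨ⟩ := exists_equivariant (pOmEquiv hP) _ _ _ γ (pOmEquiv_twistP hP h) hΦ
      obtain ⟨A', hA', hcore, hcard, -⟩ := criterion_iff Ψ p _ (mapP hσi) hΨ A
      rw [hcore, hcard, field_criterion f hm hab' he hp hodd h1 A' (hA' hinn)]
      refine (and_iff_right ⟨f 1, f c, Ψ, σ, hab', ?_, (he _).2 ⟨1, rfl⟩, (he _).2 ⟨c, rfl⟩,
        (AutOrthField.isFieldAutOf_iff hσi _).2 (MulEquiv.ext fun k => ?_)⟩).symm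
      · intro e
        exact hp.ne_one (by rw [← h1, orderOf_eq_one_iff]; exact e)
      · show Ψ (twistP h (Ψ.symm k)) = mapP hσi k
        rw [hΨ, MulEquiv.apply_symm_apply]

end CfsgLib.AutOrthMinus.Balance
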