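import Cfsg.Agent.AutOrthMinus.BalanceTwo
import Cfsg.Agent.AutOrth.IsometryTransport
import Cfsg.Agent.AutOrth.OddBalance

/-! The fixed points of a field automorphism of odd order of `PΩ⁻`. -/

set_option autoImplicit false
set_option linter.unusedSectionVars false

namespace CfsgLib.AutOrthMinus.Balance

open Cfsg Cfsg.Geo CfsgLib.OrthGeo CfsgLib.AutOrth CfsgLib.AutOrthMinus Module
open CfsgLib.AutOrthField (Sim SigmaInv mapP)
open CfsgLib.AutOrth.OddOut (ratRoots semi_eq_smul mem_zpowers_of_fix mapP_fix)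
open scoped Matrix MatrixGroups

universe u

variable {F₀ F : Type u} [Field F₀] [Fintype F₀] [Field F] [Fintype F] (f : F₀ →+* F) {m : ℕ} {a₀ b₀ : F₀}

local notation "QQ" => quadFormMinus m F (f a₀) (f b₀)
local notation "Q00" => quadFormMinus m F₀ a₀ b₀

/-- Extension of scalars on isometries. -/
noncomputable def liftIso (hQ : IsNondegenerateQuadraticForm QQ) :
    isometryGroup F₀ Q00 →* isometryGroup F QQ :=
  ((Matrix.GeneralLinearGroup.map f).comp (isometryGroup F₀ Q00).subtype).codRestrict _ fun k =>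
    AutOrthField.lift_mem_isometry f hQ (fun v => quadFormMinus_comp f v) k.2

lemma coe_liftIso (hQ : IsNondegenerateQuadraticForm QQ) (k : isometryGroup F₀ Q00) :
    ((liftIso f hQ k : isometryGroup F QQ) : GL (Idx m) F) = Matrix.GeneralLinearGroup.map f k.1 := rfl

lemma liftIso_mem (hQ : IsNondegenerateQuadraticForm QQ) {k : isometryGroup F₀ Q00}
    (hk : k ∈ Omega F₀ Q00) : liftIso f hQ k ∈ Omega F QQ := by
  have h : (commutator (isometryGroup F₀ Q00)).map (liftIso f hQ) ≤ commutator (isometryGroup F QQ) := by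
    rw [commutator_def, commutator_def, Subgroup.map_commutator]
    exact Subgroup.commutator_mono le_top le_top
  exact h ⟨k, hk, rfl⟩

/-- The rational elements of `Omega`, modulo the centre. -/
noncomputable def ratHom (hQ : IsNondegenerateQuadraticForm QQ) : Omega F₀ Q00 →* POmega F QQ :=
  (QuotientGroup.mk' (Subgroup.center (Omega F QQ))).comp
    (((liftIso f hQ).comp (Omega F₀ Q00).subtype).codRestrict _ fun k => liftIso_mem f hQ k.2)

lemma ratHom_eq (hQ : IsNondegenerateQuadraticForm QQ) (k : Omega F₀ Q00) :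
    ratHom f hQ k = QuotientGroup.mk ⟨liftIso f hQ k.1, liftIso_mem f hQ k.2⟩ := rfl

variable (hm : 3 ≤ m) (hab : ∀ x y : F, x ^ 2 + f a₀ * x * y + f b₀ * y ^ 2 = 0 → x = 0 ∧ y = 0)
variable {σ : RingAut F} (he : ∀ t, σ t = t ↔ ∃ y, f y = t)
include hm hab he

lemma hab₀ : ∀ x y : F₀, x ^ 2 + a₀ * x * y + b₀ * y ^ 2 = 0 → x = 0 ∧ y = 0 := fun x y h => by
  obtain ⟨h1, h2⟩ := hab (f x) (f y) (by
    rw [← map_pow, ← map_pow, ← map_mul, ← map_mul, ← map_mul, ← map_add, ← map_add, h, map_zero])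
  exact ⟨(map_eq_zero f).1 h1, (map_eq_zero f).1 h2⟩

lemma sigmaInv_fix : SigmaInv QQ σ := fun v => by
  have := quadFormMinus_comp (m := m) (a := f a₀) (b := f b₀) (σ : F →+* F) v
  simp only [RingEquiv.coe_toRingHom, (he _).2 ⟨_, rfl⟩] at this
  exact this

lemma hn5 : 5 ≤ Fintype.card (Idx m) := by simp; omega

lemma sigma_map (A : Matrix (Idx m) (Idx m) F₀) : (A.map f).map σ = A.map f := by
  ext i j
  exact (he _).2 ⟨_, rfl⟩

/-- Rational root elements are rational elements. -/
lemma ratRoots_mem {x : POmega F QQ} (hx : x ∈ ratRoots (hQm hab) (hn5 f hm hab he) σ) :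
    x ∈ (ratHom f (hQm hab)).range := by
  obtain ⟨u, w, hu, hw, hur, hwr, rfl⟩ := hx
  choose u₀ hu₀ using fun i => (he (u i)).1 (hur i)
  choose w₀ hw₀ using fun i => (he (w i)).1 (hwr i)
  set hQ₀ := hQm (m := m) (hab₀ f hm hab he)
  obtain rfl : u = fun i => f (u₀ i) := funext fun i => (hu₀ i).symm
  obtain rfl : w = fun i => f (w₀ i) := funext fun i => (hw₀ i).symm
  have hq : ∀ v : Idx m → F₀, QQ (fun i => f (v i)) = f (Q00 v) := fun v => quadFormMinus_comp f v
  have hb : ∀ v v' : Idx m → F₀, bform (hQm hab) (fun i => f (v i)) (fun i => f (v' i)) =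
      f (bform hQ₀ v v') := fun v v' => by
    have h := q_add (hQm hab) (fun i => f (v i)) (fun i => f (v' i))
    have h' := q_add hQ₀ v v'
    rw [show ((fun i => f (v i)) + fun i => f (v' i)) = fun i => f ((v + v') i) from funext fun i => by simp, hq, hq,
      hq, h', map_add, map_add] at h
    linear_combination -h
  have hu' : Q00 u₀ = 0 := f.injective (by rw [← hq, map_zero]; exact hu)
  have hw' : bform hQ₀ u₀ w₀ = 0 := f.injective (by rw [← hb, map_zero]; exact hw)
  obtain ⟨k, hk, hke⟩ := eichler_mem_omega hQ₀ (hn5 f hm hab he) hu' hw'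
  refine ⟨⟨k, hk⟩, ?_⟩
  obtain ⟨y, hy, hye⟩ := (eich (hQm hab) (hn5 f hm hab he) hu hw).2
  rw [pr_eq_mk _ ⟨y, hy⟩ hye, ratHom_eq]
  congr 1
  refine Subtype.ext (Subtype.ext (Units.ext ?_))
  show ((k : GL (Idx m) F₀) : Matrix (Idx m) (Idx m) F₀).map f = _
  rw [show (k : GL (Idx m) F₀) = eichler hQ₀ hu' hw' from hke]
  rw [show ((y : GL (Idx m) F)) = eichler (hQm hab) hu hw from hye]
  refine Matrix.ext_of_mulVec_single fun j => ?_
  have e1 : (Pi.single j 1 : Idx m → F) = fun i => f ((Pi.single j 1 : Idx m → F₀) i) := by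
    funext i; simp [Pi.single_apply, apply_ite f]
  rw [e1, eichler_mulVec (hQm hab)]
  funext i
  refine (RingHom.map_mulVec f _ _ i).symm.trans ?_
  rw [eichler_mulVec hQ₀]
  simp only [Pi.sub_apply, Pi.add_apply, Pi.smul_apply, smul_eq_mul, map_sub, map_add, map_mul, hb, hq]

/-- Rational elements are fixed. -/
lemma mapP_ratHom {s : POmega F QQ} (hs : s ∈ (ratHom f (hQm hab)).range) :
    mapP (sigmaInv_fix f hm hab he) s = s := by
  obtain ⟨k, rfl⟩ := hs
  rw [ratHom_eq]
  refine (twistP_mk (AutOrthField.pair_one (sigmaInv_fix f hm hab he)) _).trans ?_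
  congr 1
  refine Subtype.ext (Subtype.ext ?_)
  rw [coe_twistOmega, twist_apply, inv_one, mul_one, one_mul]
  refine Units.ext ?_
  rw [coe_mapGL]
  exact sigma_map f hm hab he _

lemma ratHom_center {k : Omega F₀ Q00} (hk : k ∈ Subgroup.center (Omega F₀ Q00)) : ratHom f (hQm hab) k = 1 := by
  obtain ⟨c, hc⟩ := scalar_of_commute_omega (hQm (hab₀ f hm hab he)) (hn5 f hm hab he)
    (g := ((k : isometryGroup F₀ Q00) : GL (Idx m) F₀)) (by
      rintro _ ⟨s, hs, rfl⟩
      exact congrArg (fun z : Omega F₀ Q00 => ((z : isometryGroup F₀ Q00) : GL (Idx m) F₀))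
        (Subgroup.mem_center_iff.1 hk ⟨s, hs⟩))
  have hA : ((liftIso f (hQm hab) k.1 : GL (Idx m) F) : Matrix (Idx m) (Idx m) F) = f c • 1 := by
    refine Matrix.ext fun i j => ?_
    have h1 := congrFun (hc (Pi.single j 1)) i
    rw [Matrix.mulVec_single_one, Pi.smul_apply, Matrix.col_apply] at h1
    show f ((((k : isometryGroup F₀ Q00) : GL (Idx m) F₀) : Matrix (Idx m) (Idx m) F₀) i j) = _
    rw [h1]
    by_cases hij : i = j
    · subst hij; simp
    · simp [hij]
  rw [ratHom_eq, QuotientGroup.eq_one_iff]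
  refine Subgroup.mem_center_iff.2 fun t => Subtype.ext (Subtype.ext (Units.ext ?_))
  simp only [Subgroup.coe_mul, Units.val_mul, hA, Matrix.mul_smul, Matrix.mul_one, Matrix.smul_mul, Matrix.one_mul]

/-- A non-trivial rational element. -/
lemma exists_rat_ne_one : ∃ k : Omega F₀ Q00, ratHom f (hQm hab) k ≠ 1 := by
  set hQ := hQm (m := m) hab
  set hn := hn5 f hm hab he
  let i0 : Fin m := ⟨0, by omega⟩
  let i1 : Fin m := ⟨1, by omega⟩
  have h01 : i0 ≠ i1 := by simp [i0, i1]
  set u : Idx m → F := Pi.single (.inl (.inl i0)) 1 with hu'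
  set w : Idx m → F := Pi.single (.inl (.inl i1)) 1 with hw'
  set v : Idx m → F := Pi.single (.inl (.inr i0)) 1 with hv'
  have hu : QQ u = 0 := by simp [hu', quadFormMinus, Pi.single_apply]
  have hqw : QQ w = 0 := by simp [hw', quadFormMinus, Pi.single_apply]
  have hw : bform hQ u w = 0 := by
    rw [bform_apply, QuadraticMap.polar, hu, hqw]
    simp [hu', hw', quadFormMinus, Pi.single_apply]
  have hrat : ∀ j i, σ ((Pi.single j 1 : Idx m → F) i) = (Pi.single j 1 : Idx m → F) i := fun j i => by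
    by_cases hij : i = j
    · subst hij; simp
    · simp [hij]
  obtain ⟨k, hk⟩ := ratRoots_mem f hm hab he (x := pr _ (eich hQ hn hu hw))
    ⟨u, w, hu, hw, hrat _, hrat _, rfl⟩
  refine ⟨k, fun h1 => ?_⟩
  obtain ⟨y, hy, hye⟩ := (eich hQ hn hu hw).2
  rw [hk, pr_eq_mk _ ⟨y, hy⟩ hye, QuotientGroup.eq_one_iff] at h1
  obtain ⟨c, hc⟩ := scalar_of_commute_omega hQ hn (g := ((y : isometryGroup F QQ) : GL (Idx m) F)) (by
      rintro _ ⟨s, hs, rfl⟩
      exact congrArg (fun z : Omega F QQ => ((z : isometryGroup F QQ) : GL (Idx m) F))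
        (Subgroup.mem_center_iff.1 h1 ⟨s, hs⟩))
  have h2 := hc v
  rw [show (y : GL (Idx m) F) = eichler hQ hu hw from hye, eichler_mulVec, hqw, zero_mul, zero_smul, sub_zero] at h2
  have h3 := congrFun h2 (.inl (.inl i1))
  have huv : bform hQ u v = 1 := by
    rw [bform_apply, QuadraticMap.polar, hu]
    simp [hu', hv', quadFormMinus, Pi.single_apply, Finset.sum_ite_eq']
  have hwv : bform hQ w v = 0 := by
    rw [bform_apply, QuadraticMap.polar, hqw]
    simp [hw', hv', quadFormMinus, Pi.single_apply, Finset.sum_ite_eq', h01, Ne.symm h01]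
  rw [huv, hwv] at h3
  simp [hu', hw', hv', h01, Ne.symm h01] at h3

/-- The rational elements form a simple group. -/
theorem isSimpleGroup_rat : IsSimpleGroup (ratHom f (hQm hab (m := m))).range := by
  have hsimple : IsSimpleGroup (POmega F₀ Q00) :=
    isSimpleGroup_POmega (hQm (hab₀ f hm hab he)) (hn5 f hm hab he)
  set θ := ratHom f (hQm hab (m := m))
  let θ' : POmega F₀ Q00 →* POmega F QQ :=
    QuotientGroup.lift _ θ fun k hk => MonoidHom.mem_ker.2 (ratHom_center f hm hab he hk)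
  have hrange : θ'.range = θ.range := by
    ext y
    constructor
    · rintro ⟨x, rfl⟩
      obtain ⟨k, rfl⟩ := QuotientGroup.mk_surjective x
      exact ⟨k, rfl⟩
    · rintro ⟨k, rfl⟩
      exact ⟨QuotientGroup.mk k, rfl⟩
  have hinj : Function.Injective θ' := by
    rw [← MonoidHom.ker_eq_bot_iff]
    refine (MonoidHom.normal_ker θ').eq_bot_or_eq_top.resolve_right fun htop => ?_
    obtain ⟨k, hk⟩ := exists_rat_ne_one f hm hab he
    exact hk (MonoidHom.mem_ker.1 (htop.ge (Subgroup.mem_top (QuotientGroup.mk k))))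
  exact MulEquiv.isSimpleGroup ((MonoidHom.ofInjective hinj).trans (MulEquiv.subgroupCongr hrange)).symm

variable {p : ℕ} (hp : p.Prime) (hodd : Odd p) (hσ : orderOf σ = p)
include hp hodd hσ

/-- Fixed elements lift to rational isometries. -/
lemma exists_rat_lift {c : POmega F QQ} (hc : mapP (sigmaInv_fix f hm hab he) c = c) :
    ∃ (k₀ : isometryGroup F₀ Q00) (h : liftIso f (hQm hab) k₀ ∈ Omega F QQ),
      c = QuotientGroup.mk ⟨_, h⟩ := by
  obtain ⟨k, rfl⟩ := QuotientGroup.mk_surjective c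
  set hQ := hQm hab (m := m)
  have hn := hn5 f hm hab he
  set t := twistOmega (AutOrthField.pair_one (sigmaInv_fix f hm hab he)) k with ht
  have h1 : k⁻¹ * t ∈ Subgroup.center (Omega F QQ) := by
    refine QuotientGroup.eq.1 ?_
    exact hc.symm.trans (twistP_mk _ k)
  obtain ⟨ζ, hζ⟩ := scalar_of_commute_omega hQ hn
    (g := (((k⁻¹ * t : Omega F QQ) : isometryGroup F QQ) : GL (Idx m) F)) (by
      rintro _ ⟨s, hs, rfl⟩
      exact congrArg (fun z : Omega F QQ => ((z : isometryGroup F QQ) : GL (Idx m) F))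
        (Subgroup.mem_center_iff.1 h1 ⟨s, hs⟩))
  set A := (((k : isometryGroup F QQ) : GL (Idx m) F) : Matrix (Idx m) (Idx m) F) with hA
  have hAσ : ∀ i j, σ (A i j) = ζ * A i j := by
    intro i j
    have e : (((t : isometryGroup F QQ) : GL (Idx m) F) : Matrix (Idx m) (Idx m) F) *ᵥ Pi.single j 1 =
        A *ᵥ (ζ • Pi.single j 1) := by
      rw [← hζ, hA, Matrix.mulVec_mulVec, ← Units.val_mul, ← Subgroup.coe_mul, ← Subgroup.coe_mul, mul_inv_cancel_left]
    have e2 := congrFun e i
    rw [ht, coe_twistOmega, twist_apply, inv_one, mul_one, one_mul, coe_mapGL, Matrix.mulVec_smul,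
      Matrix.mulVec_single_one, Matrix.mulVec_single_one, Pi.smul_apply, Matrix.col_apply, Matrix.col_apply,
      Matrix.map_apply, smul_eq_mul] at e2
    exact e2
  have hζ2 : ζ ^ 2 = 1 := by
    have h := mem_isometryGroup.1 ((k⁻¹ * t : Omega F QQ) : isometryGroup F QQ).2 (Pi.single (.inr 0) 1)
    rw [hζ, q_smul hQ, q_e0, mul_one] at h
    exact h
  have hζf : σ ζ = ζ := by
    rcases sq_eq_one_iff.1 hζ2 with rfl | rfl <;> simp
  have hζ1 : ζ = 1 := by
    obtain ⟨i, j, hij⟩ : ∃ i j, A i j ≠ 0 := by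
      by_contra hh
      push Not at hh
      exact (k : isometryGroup F QQ).1.ne_zero (Matrix.ext hh)
    have hpow : ∀ n : ℕ, (σ ^ n) (A i j) = ζ ^ n * A i j := by
      intro n
      induction n with
      | zero => simp
      | succ n ih => rw [pow_succ', RingAut.mul_apply, ih, map_mul, map_pow, hζf, hAσ, pow_succ]; ring
    have h := hpow p
    rw [← hσ, pow_orderOf_eq_one, hσ, RingAut.one_apply] at h
    obtain ⟨d, rfl⟩ := hodd
    rw [pow_succ, pow_mul, hζ2, one_pow, one_mul] at h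
    exact mul_right_cancel₀ hij (by rw [← h, one_mul])
  simp only [hζ1, one_mul] at hAσ
  have hBσ : ∀ i j, σ ((((k : isometryGroup F QQ) : GL (Idx m) F)⁻¹ : GL (Idx m) F).1 i j) =
      (((k : isometryGroup F QQ) : GL (Idx m) F)⁻¹ : GL (Idx m) F).1 i j := by
    have e : mapGL σ ((k : isometryGroup F QQ) : GL (Idx m) F) = ((k : isometryGroup F QQ) : GL (Idx m) F) :=
      Units.ext (Matrix.ext hAσ)
    intro i j
    have e2 := congrArg (fun z : GL (Idx m) F => (z⁻¹ : GL (Idx m) F).1 i j) e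
    rw [← map_inv] at e2
    exact e2
  choose A₀ hA₀ using fun i j => (he _).1 (hAσ i j)
  choose B₀ hB₀ using fun i j => (he _).1 (hBσ i j)
  have hmap : ∀ {X : Matrix (Idx m) (Idx m) F₀}, X.map f = 1 → X = 1 := fun {X} h =>
    Matrix.map_injective f.injective (h.trans (Matrix.map_one f f.map_zero f.map_one).symm)
  have hA' : (Matrix.of A₀).map f = A := Matrix.ext hA₀
  have hB' : (Matrix.of B₀).map f = (((k : isometryGroup F QQ) : GL (Idx m) F)⁻¹ : GL (Idx m) F).1 := Matrix.ext hB₀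
  let k₀ : GL (Idx m) F₀ := ⟨Matrix.of A₀, Matrix.of B₀, hmap (by rw [Matrix.map_mul, hA', hB', hA, Units.mul_inv]),
    hmap (by rw [Matrix.map_mul, hA', hB', hA, Units.inv_mul])⟩
  have hk₀ : k₀ ∈ isometryGroup F₀ Q00 := mem_isometryGroup.2 fun v => f.injective (by
    rw [← quadFormMinus_comp, ← quadFormMinus_comp,
      show (fun i => f ((k₀.1 *ᵥ v) i)) = A *ᵥ (fun i => f (v i)) by
        funext i; rw [RingHom.map_mulVec, ← hA']; rfl]
    exact mem_isometryGroup.1 (k : isometryGroup F QQ).2 _)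
  have hlift : liftIso f hQ ⟨k₀, hk₀⟩ = (k : isometryGroup F QQ) := Subtype.ext (Units.ext hA')
  exact ⟨⟨k₀, hk₀⟩, hlift.symm ▸ k.2, congrArg _ (Subtype.ext hlift.symm)⟩

/-- An automorphism fixing the rational elements is a power of the field automorphism. -/
lemma eq_mapP_of_fix (β : MulAut (POmega F QQ))
    (hfix : ∀ s ∈ (ratHom f (hQm hab)).range, β s = s) :
    β ∈ Subgroup.zpowers (mapP (sigmaInv_fix f hm hab he)) := by
  set hQ := hQm hab (m := m)
  have hn := hn5 f hm hab he
  have hσi := sigmaInv_fix (m := m) f hm hab he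
  obtain ⟨g, τ, hpair, rfl⟩ := isSemisim_minus hm hab β
  have hfix' : ∀ x ∈ ratRoots hQ hn σ, twistP hpair x = x := fun x hx =>
    hfix x (ratRoots_mem f hm hab he hx)
  let ε : Fin m → Idx m → F := fun i => Pi.single (.inl (.inl i)) 1
  let φ : Fin m → Idx m → F := fun i => Pi.single (.inl (.inr i)) 1
  let o : Fin 2 → Idx m → F := fun k => Pi.single (.inr k) 1
  let q : Fin 2 → F := ![1, f b₀]
  set G := semi g τ with hG
  have key : ∀ u : Idx m → F, u ≠ 0 → QQ u = 0 → (∀ i, σ (u i) = u i) → ∃ a : F, a • u = G u :=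
    fun u h0 h hr => semi_eq_smul hQ hn hσi hpair hfix' h0 h hr
  let i0 : Fin m := ⟨0, by omega⟩
  let i1 : Fin m := ⟨1, by omega⟩
  have h01 : i0 ≠ i1 := by simp [i0, i1]
  have hε : ∀ i, ∃ a : F, a • ε i = G (ε i) := fun i => key _ (by simp [ε])
    (by simp [ε, quadFormMinus, Pi.single_apply]) (fun k => by by_cases hk : k = .inl (.inl i) <;> simp [ε, hk])
  have hφ : ∀ i, ∃ a : F, a • φ i = G (φ i) := fun i => key _ (by simp [φ])
    (by simp [φ, quadFormMinus, Pi.single_apply]) (fun k => by by_cases hk : k = .inl (.inr i) <;> simp [φ, hk])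
  choose a ha using hε
  choose b hb using hφ
  have haa : ∀ i, a i = a i0 := by
    intro i
    by_cases hi : i = i0
    · rw [hi]
    obtain ⟨d, hd⟩ := key (ε i + ε i0) (fun h => by simpa [ε, hi] using congrFun h (.inl (.inl i)))
      (by simp [ε, quadFormMinus, Pi.single_apply])
      (fun k => by by_cases hk : k = .inl (.inl i) <;> by_cases hk' : k = .inl (.inl i0) <;> simp [ε, hk, hk', hi, Ne.symm hi])
    rw [hG, semi_add, ← hG, ← ha, ← ha] at hd
    have h1 := congrFun hd (.inl (.inl i))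
    have h2 := congrFun hd (.inl (.inl i0))
    simp [ε, hi, Ne.symm hi] at h1 h2
    exact h1.symm.trans h2
  have hbb : ∀ i, b i = a i0 := by
    intro i
    obtain ⟨j, hj⟩ : ∃ j : Fin m, j ≠ i := by
      by_cases hi : i = i0
      · exact ⟨i1, fun h => h01 (hi.symm.trans h.symm)⟩
      · exact ⟨i0, fun h => hi h.symm⟩
    obtain ⟨d, hd⟩ := key (ε j + φ i) (fun h => by simpa [ε, φ] using congrFun h (.inl (.inl j)))
      (by simp [ε, φ, quadFormMinus, Pi.single_apply, Ne.symm hj, Finset.sum_ite_eq'])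
      (fun k => by by_cases hk : k = .inl (.inl j) <;> by_cases hk' : k = .inl (.inr i) <;> simp [ε, φ, hk, hk'])
    rw [hG, semi_add, ← hG, ← ha, ← hb, haa j] at hd
    have h1 := congrFun hd (.inl (.inl j))
    have h2 := congrFun hd (.inl (.inr i))
    simp [ε, φ] at h1 h2
    exact h2.symm.trans h1
  have hqfix : ∀ k, σ (q k) = q k := fun k => by
    fin_cases k
    · exact map_one σ
    · exact (he _).2 ⟨b₀, rfl⟩
  have hτ : ∀ t, σ t = t → τ t = t := by
    intro t ht
    obtain ⟨d, hd⟩ := key (ε i0 + t • ε i1) (fun h => by simpa [ε, h01] using congrFun h (.inl (.inl i0)))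
      (by simp [ε, quadFormMinus, Pi.single_apply])
      (fun k => by
        by_cases hk : k = .inl (.inl i0) <;> by_cases hk' : k = .inl (.inl i1) <;>
          simp [ε, hk, hk', h01, Ne.symm h01, ht])
    have ha0 : a i0 ≠ 0 := fun h0 => by
      have h1 := (ha i0).symm
      rw [h0, zero_smul, hG, semi] at h1
      have h2 := congrArg (fun z => ((g⁻¹ : GL (Idx m) F) : Matrix (Idx m) (Idx m) F) *ᵥ z) h1
      simp only [inv_mulVec_cancel, Matrix.mulVec_zero] at h2
      simpa [ε] using congrFun h2 (.inl (.inl i0))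
    rw [hG, semi_add, semi_smul, ← hG, ← ha, ← ha, haa i1] at hd
    have h1 := congrFun hd (.inl (.inl i0))
    have h2 := congrFun hd (.inl (.inl i1))
    simp [ε, h01, Ne.symm h01] at h1 h2
    rw [h1] at h2
    exact mul_right_cancel₀ ha0 (h2.symm.trans (mul_comm _ _))
  have ho : ∀ k i, ∃ d : F, G (o k) = d • o k + (d - a i0) • ε i - (q k * (d - a i0)) • φ i := by
    intro k i
    obtain ⟨d, hd⟩ := key (o k + ε i + (-q k) • φ i) (fun h => by simpa [o, ε, φ] using congrFun h (.inr k))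
      (by fin_cases k <;> simp [o, ε, φ, q, quadFormMinus, Pi.single_apply, Finset.sum_ite_eq'])
      (fun l => by
        rcases l with (l | l) | l
        · by_cases hl : l = i <;> simp [o, ε, φ, hl]
        · by_cases hl : l = i <;> simp [o, ε, φ, hl, hqfix]
        · by_cases hl : l = k <;> simp [o, ε, φ, hl])
    refine ⟨d, ?_⟩
    rw [hG, semi_add, semi_add, semi_smul, ← hG, ← ha, ← hb, haa i, hbb i, map_neg, hτ _ (hqfix k)] at hd
    linear_combination (norm := module) -hd
  have hoa : ∀ k, G (o k) = a i0 • o k := by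
    intro k
    obtain ⟨d, hd⟩ := ho k i0
    obtain ⟨d', hd'⟩ := ho k i1
    have h1 := congrFun (hd.symm.trans hd') (.inl (.inl i0))
    simp [o, ε, φ, h01] at h1
    rw [hd, sub_eq_zero.1 h1]
    simp
  have hbasis : ∀ k, G (Pi.single k 1) = a i0 • (Pi.single k 1 : Idx m → F) := by
    rintro ((k | k) | k)
    · exact (ha k).symm.trans (by rw [haa k])
    · exact (hb k).symm.trans (by rw [hbb k])
    · exact hoa k
  have hscal : ∀ x, (g : Matrix (Idx m) (Idx m) F) *ᵥ x = a i0 • x := by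
    intro x
    rw [pi_eq_sum_univ' x, Matrix.mulVec_sum, Finset.smul_sum]
    refine Finset.sum_congr rfl fun k _ => ?_
    rw [Matrix.mulVec_smul, smul_comm, ← hbasis k]
    congr 1
    rw [hG, semi]
    congr 1
    funext l
    by_cases hl : l = k
    · subst hl; simp
    · simp [hl]
  have hτi : SigmaInv QQ τ := fun v => by
    have := quadFormMinus_comp (m := m) (a := f a₀) (b := f b₀) (τ : F →+* F) v
    simp only [RingEquiv.coe_toRingHom, hτ _ ((he _).2 ⟨_, rfl⟩)] at this
    exact this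
  have hg : g ∈ quadSimilarityGroup QQ := by
    obtain ⟨c, hc⟩ := semisim_exists hpair
    refine ⟨c, fun v => ?_⟩
    obtain ⟨w, rfl⟩ : ∃ w : Idx m → F, v = fun i => τ (w i) := ⟨fun i => τ.symm (v i), by funext i; simp⟩
    rw [hτi w]
    exact hc w
  rw [← AutOrthField.conjS_mul_mapP hτi ⟨g, hg⟩ hpair, conjS_eq_one_of_scalar (g := ⟨g, hg⟩) hscal, one_mul]
  obtain ⟨i, hi⟩ := Subgroup.mem_zpowers_iff.1 (mem_zpowers_of_fix (σ := σ) (τ := τ) hτ)
  have hfin : Finite (RingAut F) := Finite.of_injective (fun g : RingAut F => (g : F → F)) DFunLike.coe_injective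
  obtain ⟨j, hj⟩ : ∃ j : ℕ, σ ^ j = τ :=
    (isOfFinOrder_of_finite σ).mem_powers_iff_mem_zpowers.2 ⟨i, hi⟩
  refine ⟨(j : ℤ), ?_⟩
  show mapP hσi ^ (j : ℤ) = _
  rw [zpow_natCast, AutOrthField.mapP_pow]
  exact AutOrthField.mapP_congr _ _ hj

set_option maxHeartbeats 1000000 in
/-- The criterion on the model. -/
theorem field_criterion (A : Subgroup (MulAut (POmega F QQ))) (hinn : ∀ k, MulAut.conj k ∈ A) :
    pPrimeCore p ↥(A ⊓ Subgroup.centralizer {mapP (sigmaInv_fix f hm hab he)}) ≠ ⊥ ↔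
      Nat.Coprime p (Nat.card ↥(MonoidHom.eqLocus (mapP (sigmaInv_fix f hm hab he)).toMonoidHom
        (MonoidHom.id (POmega F QQ)))) := by
  have : Fact p.Prime := ⟨hp⟩
  set hQ := hQm hab (m := m)
  have hn := hn5 f hm hab he
  have hinj := conj_injective hQ hn
  have hsimple := isSimpleGroup_rat f hm hab he
  set S := (ratHom f hQ).range with hS
  set C := MonoidHom.eqLocus (mapP (sigmaInv_fix f hm hab he)).toMonoidHom (MonoidHom.id (POmega F QQ)) with hC
  constructor
  · intro hne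
    refine (Nat.Prime.coprime_iff_not_dvd hp).2 fun hdvd => hne ?_
    have hpS : p ∣ Nat.card S := by
      obtain ⟨⟨c, hc⟩, hco⟩ := exists_prime_orderOf_dvd_card' (p := p) hdvd
      obtain ⟨k₀, hk, rfl⟩ := exists_rat_lift f hm hab he hp hodd hσ hc
      have hsq : k₀ * k₀ ∈ Omega F₀ Q00 := by
        have hexc : ¬ (Nat.card F₀ = 2 ∧ Fintype.card (Idx m) = 4) := by
          rintro ⟨-, h4⟩; simp at h4; omega
        rw [← Classical.Orth.ker_classHom (hQm (hab₀ f hm hab he)) hexc, MonoidHom.mem_ker, map_mul]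
        generalize Classical.Orth.classHom (hQm (hab₀ f hm hab he)) hexc k₀ = z
        revert z
        decide
      have hmem : (QuotientGroup.mk ⟨_, hk⟩ : POmega F QQ) ^ 2 ∈ S := by
        refine ⟨⟨_, hsq⟩, ?_⟩
        rw [ratHom_eq, sq, ← QuotientGroup.mk_mul]
        congr 1
        exact Subtype.ext (map_mul _ _ _)
      have h1 : orderOf ((QuotientGroup.mk ⟨_, hk⟩ : POmega F QQ) ^ 2) = p := by
        have hco' : orderOf (QuotientGroup.mk ⟨_, hk⟩ : POmega F QQ) = p := (Subgroup.orderOf_coe _).trans hco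
        rw [orderOf_pow, hco', (Nat.coprime_two_right.2 hodd : Nat.Coprime p 2), Nat.div_one]
      rw [← h1, ← Subgroup.orderOf_mk _ hmem]
      exact orderOf_dvd_natCard _
    refine AutPSp.core_eq_bot A _ (by rw [AutOrthField.orderOf_mapP hQ hn, hσ]) hinn hinj S
      (fun s hs => mapP_ratHom f hm hab he hs) ?_ ?_ (fun n hn' _ => eq_mapP_of_fix f hm hab he hp hodd hσ n hn')
    · rintro c hc _ ⟨s, rfl⟩
      obtain ⟨k₀, hk, rfl⟩ := exists_rat_lift f hm hab he hp hodd hσ hc
      refine ⟨⟨k₀ * s.1 * k₀⁻¹, Subgroup.Normal.conj_mem inferInstance _ s.2 _⟩, ?_⟩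
      rw [ratHom_eq, ratHom_eq, ← QuotientGroup.mk_inv, ← QuotientGroup.mk_mul, ← QuotientGroup.mk_mul]
      congr 1
      refine Subtype.ext ?_
      show liftIso f hQ (k₀ * s.1 * k₀⁻¹) = _
      rw [map_mul, map_mul, map_inv]
      rfl
    · intro M hM hMc
      refine hM.eq_bot_or_eq_top.resolve_right fun htop => ?_
      rw [htop, Subgroup.card_top] at hMc
      exact hp.ne_one (Nat.eq_one_of_dvd_coprimes hMc hpS dvd_rfl)
  · intro hcop
    obtain ⟨k, hk⟩ := exists_rat_ne_one f hm hab he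
    exact AutPSp.core_ne_bot A _ hinn hinj hcop (mapP_ratHom f hm hab he ⟨k, rfl⟩) hk

end CfsgLib.AutOrthMinus.Balance
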