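import Cfsg.Agent.AutOrthMinus.BalanceParity

/-! Improper similarities with scalar square: self-adjoint, with eigenspaces of odd dimension, or with `m` even. -/

set_option autoImplicit false
set_option linter.unusedSectionVars false

namespace CfsgLib.AutOrthMinus.Balance

open Cfsg Cfsg.Geo CfsgLib.OrthGeo CfsgLib.AutOrth CfsgLib.AutOrthMinus Module
open CfsgLib.AutOrth.InvCentral (eig mem_eig)
open CfsgLib.AutOrthField (Sim scalarSim scalar_mulVec)
open scoped Matrix MatrixGroups

section generic

variable {ι : Type} [Fintype ι] [DecidableEq ι] {K : Type*} [Field K] [Finite K] {R : (ι → K) → K}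
  (hR : IsNondegenerateQuadraticForm R)
include hR

/-- An isometry with residual space of even dimension preserves the classes. -/
theorem even_class_of_residual (hexc : ¬ (Nat.card K = 2 ∧ Fintype.card ι = 4)) {U : Submodule K (ι → K)}
    (hU : IsMaxTS R U) {h : GL ι K} (hh : h ∈ isometryGroup K R)
    (hev : Even (finrank K (Classical.Orth.residual h))) :
    Even (finrank K U + finrank K ↥(U ⊓ imgSub h U)) := by
  obtain ⟨vs, hvs, hM⟩ := Classical.Orth.exists_reflection_list hR hexc hh
  obtain ⟨hp, -⟩ := Classical.Orth.invariants_of_prod hR hh vs hvs hM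
  rw [propext hp] at hev
  suffices key : Even (finrank K U + finrank K ↥(U ⊓ imgSub h U)) ↔ Even vs.length from key.2 hev
  clear hev hp
  induction vs generalizing h with
  | nil =>
    obtain rfl : h = 1 := Units.ext (by simpa using hM)
    rw [imgSub_one, inf_idem, List.length_nil]
    exact iff_of_true ⟨_, rfl⟩ ⟨0, rfl⟩
  | cons v vs ih =>
    have hv := hvs v (List.mem_cons_self ..)
    have hmem : (OrthGeo.reflection hR hv)⁻¹ * h ∈ isometryGroup K R :=
      mul_mem (inv_mem (reflection_mem hR hv)) hh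
    have e := ih hmem (fun w hw => hvs w (List.mem_cons_of_mem _ hw)) (by
      rw [List.map_cons, List.prod_cons] at hM
      rw [Units.val_mul, hM, ← mul_assoc]
      exact (congrArg (· * _) (Units.inv_mul (OrthGeo.reflection hR hv))).trans (one_mul _))
    have h3 := even_mul_iff hR (isometry_le_similarity R (reflection_mem hR hv)) (isometry_le_similarity R hmem) hU
    rw [mul_inv_cancel_left, e, iff_false_intro (Nat.not_even_iff_odd.2 (reflection_swaps_class hR hU hv))] at h3
    rw [h3, List.length_cons, Nat.even_add_one, false_iff]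

end generic

universe u

variable {F : Type u} [Field F] [Fintype F] {m : ℕ} {a b : F}
variable (h2 : (2 : F) ≠ 0) (hm : 3 ≤ m) (hab : ∀ x y : F, x ^ 2 + a * x * y + b * y ^ 2 = 0 → x = 0 ∧ y = 0)
variable (g : Sim (quadFormMinus m F a b)) {lam : F} (hl : lam ≠ 0)
  (hsq : ∀ v, ((g : GL (Idx m) F) : Matrix (Idx m) (Idx m) F) *ᵥ
    (((g : GL (Idx m) F) : Matrix (Idx m) (Idx m) F) *ᵥ v) = lam • v)
include h2 hm hab hl hsq

local notation "gM" => ((g : GL (Idx m) F) : Matrix (Idx m) (Idx m) F)

lemma exists_sqrt : ∃ (K : Type u) (_ : Field K) (_ : Algebra F K) (_ : Fintype K) (s : K),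
    finrank F K = 2 ∧ (2 : K) ≠ 0 ∧ s ^ 2 = algebraMap F K lam ∧
      (∀ v, (Matrix.GeneralLinearGroup.map (algebraMap F K) (g : GL (Idx m) F) : Matrix (Idx m) (Idx m) K) *ᵥ
        ((Matrix.GeneralLinearGroup.map (algebraMap F K) (g : GL (Idx m) F) : Matrix (Idx m) (Idx m) K) *ᵥ v) =
          algebraMap F K lam • v) ∧ ∃ θ : K, θ ^ 2 + algebraMap F K a * θ + algebraMap F K b = 0 := by
  obtain ⟨K, _, _, hK⟩ := exists_quadratic_extension hab
  have : FiniteDimensional F K := FiniteDimensional.of_finrank_eq_succ hK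
  have : Finite K := Module.finite_of_finite F
  obtain ⟨s, hs⟩ := exists_root_of_finrank_two h2 hK 0 (-lam)
  rw [map_zero, zero_mul, add_zero, map_neg] at hs
  refine ⟨K, inferInstance, inferInstance, Fintype.ofFinite K, s, hK, ?_, by linear_combination hs, ?_,
    exists_root_of_finrank_two h2 hK a b⟩
  · rw [← map_ofNat (algebraMap F K)]; exact (map_ne_zero _).2 h2
  · intro v
    have e : (gM * gM) = lam • 1 := Matrix.ext_of_mulVec_single fun j => by
      rw [← Matrix.mulVec_mulVec, hsq, Matrix.smul_mulVec, Matrix.one_mulVec]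
    have e' := congrArg (fun M : Matrix (Idx m) (Idx m) F => M.map (algebraMap F K)) e
    simp only [Matrix.map_mul] at e'
    rw [Matrix.mulVec_mulVec]
    show ((gM).map (algebraMap F K) * (gM).map (algebraMap F K)) *ᵥ v = _
    rw [e']
    have e3 : (lam • (1 : Matrix (Idx m) (Idx m) F)).map (algebraMap F K) = algebraMap F K lam • 1 := by
      ext i j
      by_cases h : i = j
      · subst h; simp
      · simp [h]
    rw [e3, Matrix.smul_mulVec, Matrix.one_mulVec]

/-- The multiplier of a similarity with square `lam` is `±lam`, and if it is `-lam` the classes are preserved. -/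
theorem preserves_of_neg (hmul : ∀ v, quadFormMinus m F a b (gM *ᵥ v) = -lam * quadFormMinus m F a b v) :
    PreservesSingularClassesMinus m a b gM := by
  obtain ⟨K, _, _, _, s, hK, h2K, hs, hgg, -⟩ := exists_sqrt h2 hm hab g hl hsq
  set f := algebraMap F K
  set G := Matrix.GeneralLinearGroup.map f (g : GL (Idx m) F)
  have hQK := nondeg_map (K := K) (m := m) (f := f) (hdisc hab)
  have hG := map_similarity hab f (neg_ne_zero.2 hl) hmul
  have hs0 : s ≠ 0 := fun h => hl ((map_eq_zero f).1 (by rw [← hs, h]; simp))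
  have hsing : ∀ t : K, t ^ 2 = s ^ 2 → IsTotallySingularQuad (quadFormMinus m K (f a) (f b)) (eig G t) := by
    intro t ht v hv
    have h1 := hG v
    rw [mem_eig.1 hv, q_smul hQK, map_neg, ← hs, ht] at h1
    have : 2 * s ^ 2 * quadFormMinus m K (f a) (f b) v = 0 := by linear_combination h1
    exact (mul_eq_zero.1 this).resolve_left (mul_ne_zero h2K (pow_ne_zero 2 hs0))
  have hsup : (⊤ : Submodule K (Idx m → K)) ≤ eig G s ⊔ eig G (-s) := by
    intro v _
    refine Submodule.mem_sup.2 ⟨(2 : K)⁻¹ • (v + s⁻¹ • (G : Matrix (Idx m) (Idx m) K) *ᵥ v), mem_eig.2 ?_,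
      (2 : K)⁻¹ • (v - s⁻¹ • (G : Matrix (Idx m) (Idx m) K) *ᵥ v), mem_eig.2 ?_, ?_⟩
    · rw [Matrix.mulVec_smul, Matrix.mulVec_add, Matrix.mulVec_smul, hgg, ← hs]
      match_scalars <;> field_simp
    · rw [Matrix.mulVec_smul, Matrix.mulVec_sub, Matrix.mulVec_smul, hgg, ← hs]
      match_scalars <;> field_simp
    · match_scalars <;> field_simp <;> ring
  have h1 := two_mul_finrank_le hQK (hsing s rfl)
  have h3 := two_mul_finrank_le hQK (hsing (-s) (neg_sq s))
  have h4 := (Submodule.finrank_mono hsup).trans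
    (Submodule.finrank_add_le_finrank_add_finrank _ _)
  rw [finrank_top, finrank_fintype_fun_eq_card] at h4
  have h1' : 2 * finrank K ↥(eig G s) ≤ Fintype.card (Idx m) := h1
  have h3' : 2 * finrank K ↥(eig G (-s)) ≤ Fintype.card (Idx m) := h3
  have h4' : Fintype.card (Idx m) ≤ finrank K ↥(eig G s) + finrank K ↥(eig G (-s)) := h4
  have hcard : Fintype.card (Idx m) = 2 * (m + 1) := by simp; omega
  have hU : IsMaxTS (quadFormMinus m K (f a) (f b)) (eig G s) := by
    refine ⟨hsing s rfl, ?_⟩
    show 2 * finrank K ↥(eig G s) = Fintype.card (Idx m)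
    omega
  refine preserves_of_maxTS hab hK g.2 hU ?_
  have himg : imgSub G (eig G s) = eig G s := by
    refine Submodule.eq_of_le_of_finrank_le (fun x hx => ?_) (finrank_imgSub _ _).ge
    obtain ⟨y, hy, rfl⟩ := mem_imgSub.1 hx
    rw [mem_eig.1 hy]
    exact Submodule.smul_mem _ _ hy
  rw [himg, inf_idem]
  exact ⟨_, rfl⟩

variable (hmul : ∀ v, quadFormMinus m F a b (((g : GL (Idx m) F) : Matrix (Idx m) (Idx m) F) *ᵥ v) =
  lam * quadFormMinus m F a b v)
include hmul

/-- A square: improper elements have eigenspaces of odd dimension. -/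
theorem odd_eig {s : F} (hs : s ^ 2 = lam) (hnp : ¬ PreservesSingularClassesMinus m a b gM) :
    Odd (finrank F (eig (g : GL (Idx m) F) s)) ∧ Odd (finrank F (eig (g : GL (Idx m) F) (-s))) := by
  subst hs
  have hs0 : s ≠ 0 := fun h => hl (by rw [h]; simp)
  set hQ := hQm hab (m := m)
  have hn : 8 ≤ Fintype.card (Idx m) := by simp; omega
  have hsum := InvCentral.finrank_add hQ h2 hn (g := g) hs0 hsq hmul
  have hcard : Fintype.card (Idx m) = 2 * (m + 1) := by simp; omega
  have hsum' : finrank F (eig (g : GL (Idx m) F) s) + finrank F (eig (g : GL (Idx m) F) (-s)) = Fintype.card (Idx m) := hsum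
  suffices hodd : Odd (finrank F (eig (g : GL (Idx m) F) s)) by
    refine ⟨hodd, ?_⟩
    rw [Nat.odd_iff] at hodd ⊢
    omega
  rw [← Nat.not_even_iff_odd]
  intro hev
  refine hnp ?_
  set u : Fˣ := Units.mk0 s hs0
  have hiso : ((scalarSim hQ u⁻¹ * g : Sim _) : GL (Idx m) F) ∈ isometryGroup F (quadFormMinus m F a b) :=
    mem_isometryGroup.2 fun v => by
      rw [Subgroup.coe_mul, Units.val_mul, ← Matrix.mulVec_mulVec, AutOrthField.coe_scalarSim, scalar_mulVec,
        q_smul hQ, hmul, Units.val_inv_eq_inv_val, Units.val_mk0]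
      field_simp
  set h : isometryGroup F (quadFormMinus m F a b) := ⟨_, hiso⟩
  have hker : LinearMap.ker (Matrix.mulVecLin (1 - ((h : GL (Idx m) F) : Matrix (Idx m) (Idx m) F))) =
      eig (g : GL (Idx m) F) s := by
    ext v
    rw [LinearMap.mem_ker, mem_eig, Matrix.mulVecLin_apply, Matrix.sub_mulVec, Matrix.one_mulVec, sub_eq_zero,
      show ((h : GL (Idx m) F) : Matrix (Idx m) (Idx m) F) *ᵥ v = ((u⁻¹ : Fˣ) : F) • gM *ᵥ v by
        rw [show (h : GL (Idx m) F) = ((scalarSim hQ u⁻¹ * g : Sim _) : GL (Idx m) F) from rfl, Subgroup.coe_mul,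
          Units.val_mul, ← Matrix.mulVec_mulVec, AutOrthField.coe_scalarSim, scalar_mulVec],
      Units.val_inv_eq_inv_val, Units.val_mk0, eq_inv_smul_iff₀ hs0, eq_comm]
  have hres : Even (finrank F (Classical.Orth.residual (h : GL (Idx m) F))) := by
    have h1 := LinearMap.finrank_range_add_finrank_ker
      (Matrix.mulVecLin (1 - ((h : GL (Idx m) F) : Matrix (Idx m) (Idx m) F)))
    rw [hker, finrank_fintype_fun_eq_card] at h1
    have h1' : finrank F (LinearMap.range (Matrix.mulVecLin (1 - ((h : GL (Idx m) F) : Matrix (Idx m) (Idx m) F)))) +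
        finrank F (eig (g : GL (Idx m) F) s) = Fintype.card (Idx m) := h1
    exact (Nat.even_add.1 (h1'.symm ▸ (⟨m + 1, by omega⟩ : Even (Fintype.card (Idx m))))).2 hev
  have hpar : HasPar a b (g : GL (Idx m) F) (True ↔ (cls h2 (by omega : 2 ≤ m) hab h).1 = 1) := by
    have := HasPar.mul (hdisc hab) (hasPar_scalar h2 (by omega : 2 ≤ m) hab u)
      (hasPar_isometry h2 (by omega : 2 ≤ m) hab h)
    rwa [show Matrix.GeneralLinearGroup.scalar (Idx m) u * (h : GL (Idx m) F) = (g : GL (Idx m) F) from
      gl_ext fun v => by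
        rw [Units.val_mul, ← Matrix.mulVec_mulVec, scalar_mulVec,
          show (h : GL (Idx m) F) = ((scalarSim hQ u⁻¹ * g : Sim _) : GL (Idx m) F) from rfl, Subgroup.coe_mul,
          Units.val_mul, ← Matrix.mulVec_mulVec, AutOrthField.coe_scalarSim, scalar_mulVec, smul_smul,
          Units.mul_inv, one_smul]] at this
  exact (preservesMinus_of_parVal h2 hab _ hpar).2
    (iff_of_true trivial ((Classical.Orth.classHom_fst hQ _ h).2 hres))

/-- Not a square: improper elements need `m` even. -/
theorem even_m (hns : ¬ IsSquare lam) (hnp : ¬ PreservesSingularClassesMinus m a b gM) : Even m := by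
  by_contra hodd
  refine hnp ?_
  obtain ⟨K, _, _, _, s, hK, h2K, hs, hgg, θ, hθ⟩ := exists_sqrt h2 hm hab g hl hsq
  set f := algebraMap F K
  set G := Matrix.GeneralLinearGroup.map f (g : GL (Idx m) F)
  have hQK := nondeg_map (K := K) (m := m) (f := f) (hdisc hab)
  have hG : ∀ w, quadFormMinus m K (f a) (f b) ((G : Matrix (Idx m) (Idx m) K) *ᵥ w) =
      f lam * quadFormMinus m K (f a) (f b) w :=
    map_similarity (g := (g : GL (Idx m) F)) (μ := lam) hab f hl hmul
  have hs0 : s ≠ 0 := fun h => hl ((map_eq_zero f).1 (by rw [← hs, h]; simp))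
  have hn : 8 ≤ Fintype.card (Idx m) := by simp; omega
  have hGm : G ∈ quadSimilarityGroup (quadFormMinus m K (f a) (f b)) :=
    ⟨Units.map (f : F →* K) (Units.mk0 lam hl), hG⟩
  have hsum := InvCentral.finrank_add hQK h2K hn (g := ⟨G, hGm⟩) hs0 (fun v => by rw [hgg, hs])
    (fun v => by rw [hG, hs])
  set φ := FiniteField.frobeniusAlgHom F K
  have hφs : φ s = -s := by
    have h1 : φ s * φ s = s * s := by rw [← map_mul, ← sq, hs, AlgHom.commutes]
    rcases mul_self_eq_mul_self_iff.1 h1 with h | h
    · exfalso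
      have h3 : s ^ Fintype.card F = s := h
      obtain ⟨k, hk⟩ : ∃ k, Fintype.card F = 2 * k + 1 := Nat.odd_iff.2 (FiniteField.odd_card_of_char_ne_two (fun e => h2 (by
        have := ringChar.Nat.cast_ringChar (R := F)
        rw [e] at this
        exact_mod_cast this)))
      refine hns ((FiniteField.isSquare_iff (fun e => h2 (by
        have := ringChar.Nat.cast_ringChar (R := F)
        rw [e] at this
        exact_mod_cast this)) hl).2 (f.injective ?_))
      rw [map_pow, map_one, hk, show (2 * k + 1) / 2 = k by omega, ← hs, ← pow_mul]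
      rw [hk, pow_succ] at h3
      exact mul_right_cancel₀ hs0 (by rw [h3, one_mul])
    · exact h
  have hle : ∀ t : K, φ t = -t → finrank K (eig G t) ≤ finrank K (eig G (-t)) := by
    intro t ht
    have h1 : Nat.card (eig G t) ≤ Nat.card (eig G (-t)) := by
      refine Nat.card_le_card_of_injective (fun v => ⟨fun i => φ ((v : Idx m → K) i), mem_eig.2 ?_⟩) ?_
      · funext i
        have h1 := congrArg φ (congrFun (mem_eig.1 v.2) i)
        simp only [Pi.smul_apply, smul_eq_mul, map_mul, ht] at h1 ⊢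
        rw [← h1]
        simp only [Matrix.mulVec, dotProduct, map_sum, map_mul]
        refine Finset.sum_congr rfl fun j _ => ?_
        show f _ * _ = φ (f _) * _
        rw [AlgHom.commutes]
      · intro v w e
        exact Subtype.ext (funext fun i => φ.toRingHom.injective (congrFun (congrArg Subtype.val e) i))
    rw [Module.natCard_eq_pow_finrank (K := K) (V := ↥(eig G t)),
      Module.natCard_eq_pow_finrank (K := K) (V := ↥(eig G (-t)))] at h1
    exact (Nat.pow_le_pow_iff_right Finite.one_lt_card).1 h1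
  have e1 := hle s hφs
  have e3 := hle (-s) (by rw [map_neg, hφs])
  rw [neg_neg] at e3
  set u : Kˣ := Units.mk0 s hs0
  set H : GL (Idx m) K := Matrix.GeneralLinearGroup.scalar (Idx m) u⁻¹ * G
  have hH : ∀ v, (H : Matrix (Idx m) (Idx m) K) *ᵥ v = s⁻¹ • (G : Matrix (Idx m) (Idx m) K) *ᵥ v := fun v => by
    rw [Units.val_mul, ← Matrix.mulVec_mulVec, scalar_mulVec, Units.val_inv_eq_inv_val, Units.val_mk0]
  have hHiso : H ∈ isometryGroup K (quadFormMinus m K (f a) (f b)) := mem_isometryGroup.2 fun v => by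
    rw [hH, q_smul hQK, hG, ← hs]
    field_simp
  have hU := isMaxTS_cutMap f hθ (m := m)
  refine preserves_of_maxTS hab hK g.2 hU ?_
  have himg : imgSub G (LinearMap.ker (cutMap m θ)) = imgSub H (LinearMap.ker (cutMap m θ)) := by
    ext x
    simp only [mem_imgSub, hH]
    constructor
    · rintro ⟨y, hy, rfl⟩
      exact ⟨s • y, Submodule.smul_mem _ _ hy, by rw [Matrix.mulVec_smul, inv_smul_smul₀ hs0]⟩
    · rintro ⟨y, hy, rfl⟩
      exact ⟨s⁻¹ • y, Submodule.smul_mem _ _ hy, by rw [Matrix.mulVec_smul]⟩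
  rw [himg]
  refine even_class_of_residual hQK (Classical.Orth.not_exc_of_two_ne_zero h2K) hU hHiso ?_
  have hker : LinearMap.ker (Matrix.mulVecLin (1 - (H : Matrix (Idx m) (Idx m) K))) = eig G s := by
    ext v
    rw [LinearMap.mem_ker, mem_eig, Matrix.mulVecLin_apply, Matrix.sub_mulVec, Matrix.one_mulVec, sub_eq_zero, hH,
      eq_inv_smul_iff₀ hs0, eq_comm]
  have h1 := LinearMap.finrank_range_add_finrank_ker (Matrix.mulVecLin (1 - (H : Matrix (Idx m) (Idx m) K)))
  rw [hker, finrank_fintype_fun_eq_card] at h1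
  have h1' : finrank K (LinearMap.range (Matrix.mulVecLin (1 - (H : Matrix (Idx m) (Idx m) K)))) +
      finrank K (eig G s) = Fintype.card (Idx m) := h1
  have hsum' : finrank K (eig G s) + finrank K (eig G (-s)) = Fintype.card (Idx m) := hsum
  have hcard : Fintype.card (Idx m) = 2 * (m + 1) := by simp; omega
  have hsE : Even (finrank K (eig G s)) := by
    rw [Nat.even_iff] at hodd ⊢
    omega
  exact (Nat.even_add.1 (h1'.symm ▸ (⟨m + 1, by omega⟩ : Even (Fintype.card (Idx m))))).2 hsE

end CfsgLib.AutOrthMinus.Balance
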