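import Cfsg.Agent.AutOrthMinus.Quot
import Cfsg.Agent.AutOrth.InvEigen
import Cfsg.Agent.AutOrthField.Descend
import Mathlib.FieldTheory.Finite.GaloisField

/-! When a similarity of the minus-type form preserves the classes: powers, isometric involutions. -/

set_option autoImplicit false
set_option linter.unusedSectionVars false

namespace CfsgLib.AutOrthMinus.Balance

open Cfsg Cfsg.Geo CfsgLib.OrthGeo CfsgLib.AutOrth CfsgLib.AutOrthMinus Module
open CfsgLib.AutOrth.InvCentral (eig mem_eig)
open scoped Matrix MatrixGroups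

universe u

variable {F : Type u} [Field F] [Fintype F] {m : ℕ} {a b : F}
variable (hab : ∀ x y : F, x ^ 2 + a * x * y + b * y ^ 2 = 0 → x = 0 ∧ y = 0)
include hab

omit [Fintype F] in
/-- A quadratic extension generated by a root of an irreducible polynomial `X² + cX + d`. -/
lemma exists_ext_root {c d : F} (h : ∀ x : F, x ^ 2 + c * x + d ≠ 0) :
    ∃ (K : Type u) (_ : Field K) (_ : Algebra F K) (θ : K), finrank F K = 2 ∧
      θ ^ 2 + algebraMap F K c * θ + algebraMap F K d = 0 := by
  let P : Polynomial F := Polynomial.X ^ 2 + Polynomial.C c * Polynomial.X + Polynomial.C d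
  have hP : P.natDegree = 2 := by simp only [P]; compute_degree!
  have hirr : Irreducible P := by
    refine Polynomial.irreducible_of_degree_le_three_of_not_isRoot (by rw [Finset.mem_Icc]; omega) fun x hx => ?_
    simp only [P, Polynomial.IsRoot.def, Polynomial.eval_add, Polynomial.eval_mul, Polynomial.eval_pow,
      Polynomial.eval_X, Polynomial.eval_C] at hx
    exact h x hx
  haveI := Fact.mk hirr
  refine ⟨AdjoinRoot P, inferInstance, inferInstance, AdjoinRoot.root P, ?_, ?_⟩
  · rw [(AdjoinRoot.powerBasis hirr.ne_zero).finrank, AdjoinRoot.powerBasis_dim, hP]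
  · have h0 := AdjoinRoot.eval₂_root P
    simpa [P, Polynomial.eval₂_add, Polynomial.eval₂_mul, Polynomial.eval₂_pow, AdjoinRoot.algebraMap_eq] using h0

lemma no_root (x : F) : x ^ 2 + a * x + b ≠ 0 := fun h => one_ne_zero (hab x 1 (by linear_combination h)).2

lemma hdisc : 4 * b - a ^ 2 ≠ 0 := Classical.Orth.four_mul_sub_sq_ne_zero hab

lemma hQm : IsNondegenerateQuadraticForm (quadFormMinus m F a b) :=
  Classical.Orth.isNondegQF_quadFormMinus m a b hab

omit hab in
lemma q_e0 : quadFormMinus m F a b (Pi.single (.inr 0) 1) = 1 := by simp [quadFormMinus]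

variable {K : Type u} [Field K] (f : F →+* K)

/-- The form over the extension. -/
local notation "QK" => quadFormMinus m K (f a) (f b)

omit hab in
lemma map_e0 : (fun i => f ((Pi.single (.inr 0) 1 : Idx m → F) i)) = (Pi.single (.inr 0) 1 : Idx m → K) := by
  funext i
  simp [Pi.single_apply, apply_ite f]

/-- Extending the scalars of a similarity keeps the multiplier. -/
lemma map_similarity {g : GL (Idx m) F} {μ : F} (hμ : μ ≠ 0)
    (hg : ∀ v, quadFormMinus m F a b ((g : Matrix (Idx m) (Idx m) F) *ᵥ v) = μ * quadFormMinus m F a b v)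
    (w : Idx m → K) :
    QK ((Matrix.GeneralLinearGroup.map f g : Matrix (Idx m) (Idx m) K) *ᵥ w) = f μ * QK w := by
  obtain ⟨c, hc⟩ := AutOrthField.map_mem_sim f (nondeg_map (hdisc hab)) (Q₀ := quadFormMinus m F a b)
    (fun v => quadFormMinus_comp f v) (g₀ := g) ⟨Units.mk0 μ hμ, hg⟩
  have h1 := hc (fun i => f ((Pi.single (.inr 0) 1 : Idx m → F) i))
  have h3 : (Matrix.GeneralLinearGroup.map f g : Matrix (Idx m) (Idx m) K) *ᵥ
      (fun i => f ((Pi.single (.inr 0) 1 : Idx m → F) i)) =
        fun i => f (((g : Matrix (Idx m) (Idx m) F) *ᵥ Pi.single (.inr 0) 1) i) :=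
    funext fun i => (RingHom.map_mulVec f g.1 _ i).symm
  rw [h3, quadFormMinus_comp, quadFormMinus_comp, hg, q_e0, mul_one, map_one, mul_one] at h1
  rw [hc, h1]

omit f in
/-- Class preservation tested on one maximal totally singular subspace over one extension. -/
lemma preserves_of_maxTS [Algebra F K] (hK : finrank F K = 2) {g : GL (Idx m) F}
    (hg : g ∈ quadSimilarityGroup (quadFormMinus m F a b)) {U : Submodule K (Idx m → K)}
    (hU : IsMaxTS (quadFormMinus m K (algebraMap F K a) (algebraMap F K b)) U)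
    (hev : Even (finrank K U + finrank K ↥(U ⊓ imgSub (Matrix.GeneralLinearGroup.map (algebraMap F K) g) U))) :
    PreservesSingularClassesMinus m a b (g : Matrix (Idx m) (Idx m) F) := by
  refine ⟨K, inferInstance, inferInstance, hK, ?_⟩
  obtain ⟨μ, hμ⟩ := hg
  have hgK : Matrix.GeneralLinearGroup.map (algebraMap F K) g ∈
      quadSimilarityGroup (quadFormMinus m K (algebraMap F K a) (algebraMap F K b)) :=
    ⟨Units.map (algebraMap F K : F →* K) μ, fun w => map_similarity hab (algebraMap F K) μ.ne_zero hμ w⟩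
  exact (preservesSingularClasses_iff (nondeg_map (hdisc hab)) hgK hU).2 hev

omit f in
/-- A similarity with scalar odd power preserves the classes. -/
theorem preserves_of_odd_pow {g : AutOrthField.Sim (quadFormMinus m F a b)} {p : ℕ} (hp : Odd p) {c : F}
    (hgp : ∀ v, (((g : GL (Idx m) F) ^ p : GL (Idx m) F) : Matrix (Idx m) (Idx m) F) *ᵥ v = c • v) :
    PreservesSingularClassesMinus m a b ((g : GL (Idx m) F) : Matrix (Idx m) (Idx m) F) := by
  obtain ⟨K, _, _, θ, hK, hθ⟩ := exists_ext_root hab (no_root hab)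
  set f := algebraMap F K
  set U := LinearMap.ker (cutMap m θ)
  have hU : IsMaxTS (quadFormMinus m K (f a) (f b)) U := isMaxTS_cutMap f hθ
  have hQK := nondeg_map (K := K) (m := m) (f := f) (hdisc hab)
  set G := Matrix.GeneralLinearGroup.map f (g : GL (Idx m) F) with hG
  have hGm : G ∈ quadSimilarityGroup (quadFormMinus m K (f a) (f b)) :=
    AutOrthField.map_mem_sim f hQK (fun v => quadFormMinus_comp f v) g.2
  have hk : ∀ k : ℕ, Even (finrank K U + finrank K ↥(U ⊓ imgSub (G ^ (2 * k + 1)) U)) ↔
      Even (finrank K U + finrank K ↥(U ⊓ imgSub G U)) := by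
    intro k
    induction k with
    | zero => rw [pow_one]
    | succ k ih =>
      rw [show 2 * (k + 1) + 1 = (2 * k + 1) + 1 + 1 by ring, pow_succ, pow_succ,
        even_mul_iff hQK (mul_mem (pow_mem hGm _) hGm) hGm hU, even_mul_iff hQK (pow_mem hGm _) hGm hU, ih]
      tauto
  obtain ⟨k, rfl⟩ := hp
  refine preserves_of_maxTS hab hK g.2 hU ((hk k).1 ?_)
  have himg : imgSub (G ^ (2 * k + 1)) U = U := by
    refine Submodule.eq_of_le_of_finrank_le (fun x hx => ?_) (finrank_imgSub _ _).ge
    obtain ⟨y, hy, rfl⟩ := mem_imgSub.1 hx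
    rw [hG, ← map_pow]
    have he : ((Matrix.GeneralLinearGroup.map f ((g : GL (Idx m) F) ^ (2 * k + 1)) : GL (Idx m) K) :
        Matrix (Idx m) (Idx m) K) = f c • 1 := by
      refine Matrix.ext fun i j => ?_
      have h1 := congrFun (hgp (Pi.single j 1)) i
      rw [Matrix.mulVec_single_one, Pi.smul_apply, Matrix.col_apply] at h1
      show f _ = _
      rw [h1]
      by_cases hij : i = j
      · subst hij; simp
      · simp [hij]
    rw [he, Matrix.smul_mulVec, Matrix.one_mulVec]
    exact U.smul_mem _ hy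
  rw [himg, inf_idem]
  exact ⟨_, rfl⟩

end CfsgLib.AutOrthMinus.Balance
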