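import Cfsg.Agent.AutOrthMinus.BalanceInvolution
import Cfsg.Agent.AutOrth.InvComplex
import Cfsg.Agent.AutOrth.TwoElements
import Cfsg.Agent.AutOrthField.IsometryLift
import Cfsg.Agent.AutOrthMinus.FieldPart

/-! Automorphisms of prime order of `PΩ⁻` that are not inner-diagonal: the field part, and the involutory case. -/

set_option autoImplicit false
set_option linter.unusedSectionVars false

namespace CfsgLib.AutOrthMinus.Balance

open Cfsg Cfsg.Geo CfsgLib.OrthGeo CfsgLib.AutOrth CfsgLib.AutOrthMinus Module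
open CfsgLib.AutOrth.InvCentral (eig mem_eig)
open CfsgLib.AutOrthField (Sim scalarSim scalar_mulVec)
open scoped Matrix MatrixGroups

universe u

variable {F : Type u} [Field F] [Fintype F] {m : ℕ} {a b : F}
variable (hm : 3 ≤ m) (hab : ∀ x y : F, x ^ 2 + a * x * y + b * y ^ 2 = 0 → x = 0 ∧ y = 0)
include hm hab

local notation "Q₀" => quadFormMinus m F a b

/-- Totally singular subspaces have dimension at most `m`. -/
lemma finrank_singular_le {W : Submodule F (Idx m → F)} (hW : IsTotallySingularQuad Q₀ W) : finrank F W ≤ m := by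
  set hQ := hQm hab (m := m)
  let X : W →ₗ[F] (Fin m → F) :=
    (LinearMap.funLeft F F fun i => Sum.inl (Sum.inl i)).comp W.subtype
  let Y : LinearMap.ker X →ₗ[F] (Fin m → F) :=
    ((LinearMap.funLeft F F fun i => Sum.inl (Sum.inr i)).comp W.subtype).comp (LinearMap.ker X).subtype
  have hx : ∀ w : LinearMap.ker X, ∀ i, ((w : W) : Idx m → F) (.inl (.inl i)) = 0 := fun w i =>
    congrFun (LinearMap.mem_ker.1 w.2) i
  have hzero : ∀ w : LinearMap.ker X, ((w : W) : Idx m → F) (.inr 0) = 0 ∧ ((w : W) : Idx m → F) (.inr 1) = 0 := by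
    intro w
    have h := hW _ (w : W).2
    simp only [quadFormMinus, hx w, zero_mul, Finset.sum_const_zero, zero_add] at h
    exact hab _ _ h
  have hY : Function.Injective Y := by
    rw [injective_iff_map_eq_zero]
    intro w hw
    apply Subtype.ext; apply Subtype.ext
    funext k
    rcases k with (i | i) | i
    · exact hx w i
    · exact congrFun hw i
    · fin_cases i
      · exact (hzero w).1
      · exact (hzero w).2
  let D : (Fin m → F) →ₗ[F] Module.Dual F (Fin m → F) := (dotProductEquiv F (Fin m)).toLinearMap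
  have hle : (LinearMap.range X).map D ≤ (LinearMap.range Y).dualAnnihilator := by
    rintro _ ⟨_, ⟨w, rfl⟩, rfl⟩
    rw [Submodule.mem_dualAnnihilator]
    rintro _ ⟨y, rfl⟩
    have hpol : QuadraticMap.polar Q₀ (w : Idx m → F) ((y : W) : Idx m → F) = 0 := by
      rw [QuadraticMap.polar, hW _ (W.add_mem w.2 (y : W).2), hW _ w.2, hW _ (y : W).2]; ring
    simp only [QuadraticMap.polar, quadFormMinus, Pi.add_apply, hx y, (hzero y).1, (hzero y).2, add_zero, zero_mul,
      Finset.sum_const_zero, mul_add, Finset.sum_add_distrib] at hpol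
    change dotProduct (X w) (Y y) = 0
    simp only [dotProduct]
    show ∑ i, (w : Idx m → F) (.inl (.inl i)) * ((y : W) : Idx m → F) (.inl (.inr i)) = 0
    linear_combination hpol
  have h1 := Submodule.finrank_mono hle
  rw [← (Submodule.equivMapOfInjective D (dotProductEquiv F (Fin m)).injective (LinearMap.range X)).finrank_eq] at h1
  have h2' := Subspace.finrank_add_finrank_dualAnnihilator_eq (LinearMap.range Y)
  rw [Module.finrank_fintype_fun_eq_card, Fintype.card_fin, LinearMap.finrank_range_of_inj hY] at h2'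
  have h3 := LinearMap.finrank_range_add_finrank_ker X
  omega

/-- All automorphisms are semisimilarities. -/
theorem isSemisim_minus (β : MulAut (POmega F Q₀)) : IsSemisim Q₀ β := by
  refine isSemisim_of_dim_eight (hQm hab) (by simp; omega) (fun W hW h8 => ?_) β
  simp at h8
  exact (finrank_singular_le hm hab hW).trans (by omega)

/-- Similarities preserving the classes act as inner-diagonal automorphisms. -/
lemma innerDiag_of_preserves (g : Sim Q₀)
    (h : PreservesSingularClassesMinus m a b ((g : GL (Idx m) F) : Matrix (Idx m) (Idx m) F)) :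
    IsInnerDiagonalAutPOmegaMinus m a b (conjS Q₀ g) :=
  ⟨g.1, g.2, h, isInduced_twistP (pair_of_mem_similarity g.2)⟩

/-- An automorphism of prime order is induced by a semisimilarity whose field part has order one or `p`. -/
theorem exists_semi {p : ℕ} {x : MulAut (POmega F Q₀)} (hord : orderOf x = p) :
    ∃ (G : GL (Idx m) F) (σ : RingAut F) (h : IsSemisimilarityPair Q₀ G σ), x = twistP h ∧ σ ^ p = 1 := by
  obtain ⟨G, σ, h, rfl⟩ := isSemisim_minus hm hab x
  obtain ⟨ψ, hψ, -⟩ := exists_fieldHom (hQm hab) (by simp; omega) (isSemisim_minus hm hab)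
  refine ⟨G, σ, h, rfl, ?_⟩
  rw [← hψ G σ h, ← map_pow, ← QuotientGroup.mk_pow, ← hord, pow_orderOf_eq_one, QuotientGroup.mk_one, map_one]

/-- In odd characteristic the field part is not an involution. -/
theorem field_part_ne_two (h2 : (2 : F) ≠ 0) {G : GL (Idx m) F} {σ : RingAut F}
    (h : IsSemisimilarityPair Q₀ G σ) (hx : twistP h ^ 2 = 1) (hσ : orderOf σ = 2) : False := by
  set hQ := hQm hab (m := m)
  have hσ2 : σ * σ = 1 := by rw [← sq, ← hσ, pow_orderOf_eq_one]
  rw [sq, twistP_mul] at hx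
  have hmem : G * mapGL σ G ∈ quadSimilarityGroup Q₀ := by
    obtain ⟨c, hc⟩ := semisim_exists (isSemisimilarityPair_comp h h)
    refine ⟨c, fun v => ?_⟩
    have := hc v
    rw [show RingEquiv.trans σ σ = (1 : RingAut F) from hσ2] at this
    exact this
  rw [twistP_congr (isSemisimilarityPair_comp h h) (pair_of_mem_similarity hmem) rfl hσ2] at hx
  obtain ⟨c, hc⟩ := scalar_of_conjS_eq_one hQ (g := ⟨_, hmem⟩) (by simp; omega) hx
  obtain ⟨μ, hμ⟩ := semisim_exists h
  have hb : ∀ x y, bform hQ (semi G σ x) (semi G σ y) = μ * σ (bform hQ x y) := fun x y => by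
    have e1 := q_add hQ (semi G σ x) (semi G σ y)
    rw [← semi_add, hμ, hμ, hμ, q_add hQ x y, map_add, map_add] at e1
    linear_combination -e1
  have hs : ∀ j, semi G σ (Pi.single j 1) = (G : Matrix (Idx m) (Idx m) F) *ᵥ Pi.single j 1 := fun j => by
    rw [semi]
    congr 1
    funext i
    by_cases hij : i = j
    · subst hij; simp
    · simp [hij]
  set M := LinearMap.BilinForm.toMatrix' (bform hQ) with hM
  have hMdet : M.det = (-1) ^ m * (4 * b - a ^ 2) := by
    rw [← det_gram (m := m) (a := a) (b := b)]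
    congr 1
  have hG : (G : Matrix (Idx m) (Idx m) F).transpose * M * (G : Matrix (Idx m) (Idx m) F) = (μ : F) • M.map σ := by
    rw [hM, ← LinearMap.toMatrix'_toLin' (G : Matrix (Idx m) (Idx m) F), ← LinearMap.BilinForm.toMatrix'_comp]
    ext i j
    rw [LinearMap.BilinForm.toMatrix'_apply, LinearMap.BilinForm.comp_apply, Matrix.toLin'_apply,
      Matrix.toLin'_apply, ← hs, ← hs, hb, Matrix.smul_apply, Matrix.map_apply,
      LinearMap.BilinForm.toMatrix'_apply, smul_eq_mul]
  have hdet := congrArg Matrix.det hG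
  rw [Matrix.det_mul, Matrix.det_mul, Matrix.det_transpose, Matrix.det_smul, hMdet,
    show (M.map σ).det = σ M.det from ((σ : F →+* F).map_det M).symm, hMdet] at hdet
  have hGG : (G : Matrix (Idx m) (Idx m) F) * (G : Matrix (Idx m) (Idx m) F).map σ = c • 1 :=
    Matrix.ext_of_mulVec_single fun j => by
      rw [Matrix.smul_mulVec, Matrix.one_mulVec, ← coe_mapGL, ← Units.val_mul]; exact hc _
  have hd2 := congrArg Matrix.det hGG
  rw [Matrix.det_mul, Matrix.det_smul, Matrix.det_one, mul_one,
    show ((G : Matrix (Idx m) (Idx m) F).map σ).det = σ (G : Matrix (Idx m) (Idx m) F).det from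
      ((σ : F →+* F).map_det _).symm] at hd2
  have hμc : (μ : F) * σ μ = c ^ 2 := by
    obtain ⟨v, hv⟩ : ∃ v, Q₀ v = 1 := ⟨Pi.single (.inr 0) 1, q_e0 (m := m) (a := a) (b := b)⟩
    have e : semi G σ (semi G σ v) = c • v := by
      rw [semi_comp]
      show semi (G * mapGL σ G) (RingEquiv.trans σ σ) v = _
      rw [show RingEquiv.trans σ σ = (1 : RingAut F) from hσ2]
      exact hc v
    have e1 := congrArg Q₀ e
    rwa [hμ, hμ, hv, map_one, mul_one, q_smul hQ, hv, mul_one] at e1
  have hcard : Fintype.card (Idx m) = 2 * (m + 1) := by simp; omega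
  rw [hcard] at hdet hd2
  set ε := (-1 : F) ^ m * (4 * b - a ^ 2) with hε
  set d := (G : Matrix (Idx m) (Idx m) F).det
  have hd0 : d ≠ 0 := ((Matrix.isUnit_iff_isUnit_det _).1 G.isUnit).ne_zero
  have hμk : (μ : F) ^ (m + 1) ≠ 0 := pow_ne_zero _ μ.ne_zero
  have hε0 : ε ≠ 0 := mul_ne_zero (pow_ne_zero _ (neg_ne_zero.2 one_ne_zero)) (hdisc hab)
  set t := d / (μ : F) ^ (m + 1) with ht
  have hσε : σ ε = t ^ 2 * ε := by
    have e : ((μ : F) ^ (m + 1)) ^ 2 = (μ : F) ^ (2 * (m + 1)) := by rw [← pow_mul, mul_comm]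
    rw [ht, div_pow, div_mul_eq_mul_div, eq_div_iff (pow_ne_zero _ hμk), e]
    linear_combination -hdet
  have htt : t * σ t = 1 := by
    rw [ht, map_div₀, div_mul_div_comm, hd2, map_pow, ← mul_pow, hμc, ← pow_mul]
    refine div_self (pow_ne_zero _ ?_)
    intro hc0
    rw [hc0, zero_pow (by norm_num), mul_eq_zero, or_iff_right μ.ne_zero, map_eq_zero] at hμc
    exact μ.ne_zero hμc
  obtain ⟨u, hu0, hu⟩ : ∃ u, u ≠ 0 ∧ σ u = t * u := by
    have hex : ∃ z, z + σ z / t ≠ 0 := by
      by_contra hh
      push Not at hh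
      have ht0 : t ≠ 0 := fun e => by rw [e, zero_mul] at htt; exact zero_ne_one htt
      have h1 := hh 1
      rw [map_one, ← sub_neg_eq_add, sub_eq_zero, eq_comm, neg_eq_iff_eq_neg, div_eq_iff ht0] at h1
      have ht1 : t = -1 := by linear_combination h1
      have : σ = 1 := RingEquiv.ext fun z => by
        have := hh z
        rw [ht1, div_neg, div_one] at this
        show σ z = z
        linear_combination -this
      rw [this, orderOf_one] at hσ
      omega
    obtain ⟨z, hz⟩ := hex
    refine ⟨_, hz, ?_⟩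
    have ht0 : t ≠ 0 := fun e => by rw [e, zero_mul] at htt; exact zero_ne_one htt
    have hσt : σ t = t⁻¹ := eq_inv_of_mul_eq_one_right htt
    have hσσ : σ (σ z) = z := by rw [← RingAut.mul_apply, hσ2]; rfl
    rw [map_add, map_div₀, hσσ, hσt]
    field_simp
    ring
  have hsq : IsSquare ε := by
    have hfix : σ (ε / u ^ 2) = ε / u ^ 2 := by
      rw [map_div₀, map_pow, hσε, hu]
      have ht0 : t ≠ 0 := fun e => by rw [e, zero_mul] at htt; exact zero_ne_one htt
      field_simp
    have he := AutOrthField.exists_eqLocus σ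
    obtain ⟨y, hy⟩ := (he _).1 hfix
    obtain ⟨w, hw⟩ := hy ▸ AutOrthField.isSquare_map_of_two _ hσ he y
    exact ⟨w * u, by rw [show ε = ε / u ^ 2 * u ^ 2 by field_simp, hw]; ring⟩
  obtain ⟨-, hq⟩ := (isSquare_det_iff h2 hab).1 hsq
  refine (FiniteField.isSquare_neg_one_iff.1 ?_) hq
  have he := AutOrthField.exists_eqLocus σ
  obtain ⟨y, hy⟩ := (he (-1 : F)).1 (by simp)
  exact hy ▸ AutOrthField.isSquare_map_of_two _ hσ he y

/-- A non-square `lam` gives a quadratic field acting on the natural module. -/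
theorem core_eq_bot_nonsquare (h2 : (2 : F) ≠ 0) (heven : Even m) (g : Sim Q₀) {lam : F} (hns : ¬ IsSquare lam)
    (hsq : ∀ v, ((g : GL (Idx m) F) : Matrix (Idx m) (Idx m) F) *ᵥ
      (((g : GL (Idx m) F) : Matrix (Idx m) (Idx m) F) *ᵥ v) = lam • v)
    (hmul : ∀ v, Q₀ (((g : GL (Idx m) F) : Matrix (Idx m) (Idx m) F) *ᵥ v) = lam * Q₀ v)
    (A : Subgroup (MulAut (POmega F Q₀))) (hinn : ∀ k, MulAut.conj k ∈ A) (hord : orderOf (conjS Q₀ g) = 2) :
    pPrimeCore 2 ↥(A ⊓ Subgroup.centralizer {conjS Q₀ g}) = ⊥ := by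
  obtain ⟨K, _, _, s, hK, hs⟩ := exists_ext_root hab (c := 0) (d := -lam)
    (fun x h => hns ⟨x, by linear_combination -h⟩)
  rw [map_zero, zero_mul, add_zero, map_neg] at hs
  have hss : s * s = algebraMap F K lam := by linear_combination hs
  have : FiniteDimensional F K := FiniteDimensional.of_finrank_eq_succ hK
  have : Finite K := Module.finite_of_finite F
  let Φ : (F × F) →ₗ[F] K :=
    { toFun := fun p => algebraMap F K p.1 + algebraMap F K p.2 * s
      map_add' := fun p q => by simp only [Prod.fst_add, Prod.snd_add, map_add]; ring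
      map_smul' := fun c p => by
        simp only [Prod.smul_fst, Prod.smul_snd, smul_eq_mul, map_mul, RingHom.id_apply]; rw [Algebra.smul_def]; ring }
  have hinj : Function.Injective Φ := by
    rw [injective_iff_map_eq_zero]
    rintro ⟨x, y⟩ h
    change algebraMap F K x + algebraMap F K y * s = 0 at h
    by_cases hy : y = 0
    · subst hy
      rw [map_zero, zero_mul, add_zero, map_eq_zero] at h
      rw [h]; rfl
    exfalso
    refine hns ⟨x / y, (algebraMap F K).injective ?_⟩
    have hy' : algebraMap F K y ≠ 0 := (map_ne_zero _).2 hy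
    rw [← hss, map_mul, map_div₀]
    field_simp
    linear_combination (algebraMap F K y * s - algebraMap F K x) * h
  let e := LinearEquiv.ofBijective Φ ⟨hinj, (LinearMap.injective_iff_surjective_of_finrank_eq_finrank
    (by rw [finrank_prod, finrank_self, hK])).1 hinj⟩
  set T := Matrix.toLin' ((g : GL (Idx m) F) : Matrix (Idx m) (Idx m) F) with hT
  have hTT : T * T = lam • (1 : Module.End F (Idx m → F)) := LinearMap.ext fun v => by
    rw [Module.End.mul_apply, LinearMap.smul_apply, Module.End.one_apply, hT, Matrix.toLin'_apply, Matrix.toLin'_apply]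
    exact hsq v
  let φ₀ : K → Module.End F (Idx m → F) := fun k => (e.symm k).1 • 1 + (e.symm k).2 • T
  have hφ : ∀ x y, φ₀ (algebraMap F K x + algebraMap F K y * s) = x • 1 + y • T := fun x y => by
    simp only [φ₀, show algebraMap F K x + algebraMap F K y * s = e (x, y) from rfl, LinearEquiv.symm_apply_apply]
  have hgen : ∀ k, ∃ x y, k = algebraMap F K x + algebraMap F K y * s := fun k =>
    ⟨(e.symm k).1, (e.symm k).2, (e.apply_symm_apply k).symm⟩
  have hφalg : ∀ x, φ₀ (algebraMap F K x) = x • 1 := fun x => by simpa using hφ x 0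
  let φ : K →+* Module.End F (Idx m → F) :=
    { toFun := φ₀
      map_one' := by rw [← map_one (algebraMap F K), hφalg, one_smul]
      map_zero' := by rw [← map_zero (algebraMap F K), hφalg, zero_smul]
      map_add' := fun k k' => by simp only [φ₀, map_add, Prod.fst_add, Prod.snd_add, add_smul]; abel
      map_mul' := fun k k' => by
        obtain ⟨x, y, rfl⟩ := hgen k
        obtain ⟨x', y', rfl⟩ := hgen k'
        rw [show (algebraMap F K x + algebraMap F K y * s) * (algebraMap F K x' + algebraMap F K y' * s) =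
          algebraMap F K (x * x' + y * y' * lam) + algebraMap F K (x * y' + y * x') * s by
            simp only [map_add, map_mul]
            linear_combination (algebraMap F K y * algebraMap F K y') * hss, hφ, hφ, hφ]
        simp only [add_mul, mul_add, smul_mul_assoc, mul_smul_comm, one_mul, mul_one, hTT, smul_smul, add_smul,
          mul_comm lam]
        module }
  letI : Module K (Idx m → F) := Module.compHom _ φ
  have : IsScalarTower F K (Idx m → F) := ⟨fun x k v => by
    show φ₀ (x • k) v = x • φ₀ k v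
    simp only [φ₀, map_smul, Prod.smul_fst, Prod.smul_snd, smul_eq_mul, mul_smul, LinearMap.add_apply,
      LinearMap.smul_apply, smul_add]⟩
  let S : InvCentral.Setting g lam K :=
    { s := s, nsq := hns, s_sq := hss, gen := hgen, mul_eq := hmul
      smul_eq := fun v => by
        show φ₀ s v = _
        have := hφ 0 1
        rw [map_zero, map_one, one_mul, zero_add, zero_smul, zero_add, one_smul] at this
        rw [this, hT, Matrix.toLin'_apply] }
  obtain ⟨k, rfl⟩ := heven
  exact S.core_eq_bot_complex (hQm hab) h2 (by simp; omega) (isSemisim_minus hm hab) A hinn hord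

set_option maxHeartbeats 800000 in
/-- The core of the centraliser of an improper involutory similarity. -/
theorem core_eq_bot_two (h2 : (2 : F) ≠ 0) (g : Sim Q₀)
    (hnp : ¬ PreservesSingularClassesMinus m a b ((g : GL (Idx m) F) : Matrix (Idx m) (Idx m) F))
    (A : Subgroup (MulAut (POmega F Q₀))) (hinn : ∀ k, MulAut.conj k ∈ A) (hord : orderOf (conjS Q₀ g) = 2) :
    pPrimeCore 2 ↥(A ⊓ Subgroup.centralizer {conjS Q₀ g}) = ⊥ := by
  have : Nonempty (Idx m) := ⟨.inr 0⟩
  set hQ := hQm hab (m := m)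
  set G := ((g : GL (Idx m) F) : Matrix (Idx m) (Idx m) F)
  obtain ⟨c, hc⟩ := AutOrthField.exists_scalar_of_conjS_eq_one hQ (by simp; omega) (g := g * g)
    (by
      have h1 := pow_orderOf_eq_one (conjS Q₀ g)
      rw [hord, sq] at h1
      rw [map_mul]; exact h1)
  have hsq : ∀ v, G *ᵥ (G *ᵥ v) = (c : F) • v := fun v => by
    have h1 := congrArg (fun z : Sim Q₀ => (((z : GL (Idx m) F)) : Matrix (Idx m) (Idx m) F) *ᵥ v) hc
    simp only [Subgroup.coe_mul, Units.val_mul, AutOrthField.coe_scalarSim, scalar_mulVec,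
      ← Matrix.mulVec_mulVec] at h1
    exact h1
  have hne : ∃ w, Q₀ w ≠ 0 := AutOrthField.exists_q_ne_zero hQ
  have hμ₀ := AutOrthField.mult_spec hne g
  obtain ⟨μ, hμ⟩ : ∃ μ : Fˣ, ∀ w, Q₀ (G *ᵥ w) = (μ : F) * Q₀ w :=
    ⟨AutOrthField.mult hne g, fun w => hμ₀ w⟩
  clear hμ₀
  obtain ⟨v, hv⟩ : ∃ v, Q₀ v = 1 := ⟨Pi.single (.inr 0) 1, q_e0 (m := m) (a := a) (b := b)⟩
  have hμc : (μ : F) = c ∨ (μ : F) = -c := by
    apply sq_eq_sq_iff_eq_or_eq_neg.1
    have h1 := congrArg Q₀ (hsq v)
    rw [hμ, hμ, hv, mul_one, q_smul hQ, hv, mul_one] at h1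
    rw [sq]; exact h1
  rcases hμc with e | e
  swap
  · exact absurd (preserves_of_neg h2 hm hab g c.ne_zero hsq (fun v => by rw [hμ, e])) hnp
  have hmul : ∀ v, Q₀ (G *ᵥ v) = (c : F) * Q₀ v := fun v => by rw [hμ, e]
  by_cases hs : IsSquare (c : F)
  · obtain ⟨s, hs⟩ := hs
    rw [← sq] at hs
    have hs0 : s ≠ 0 := fun h => c.ne_zero (by rw [hs, h]; simp)
    obtain ⟨hk, hk'⟩ := odd_eig h2 hm hab g c.ne_zero hsq hmul hs.symm hnp
    exact InvCentral.core_eq_bot_eigen hQ h2 (by simp; omega) hs0 (fun v => hs ▸ hsq v) (fun v => hs ▸ hmul v)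
      (isSemisim_minus hm hab) hk hk' A hinn hord
  · exact core_eq_bot_nonsquare hm hab h2 (even_m h2 hm hab g c.ne_zero hsq hmul hs hnp) g hs hsq hmul A hinn hord

/-- An involution is not a field automorphism. -/
theorem not_fieldClass_of_two (h2 : (2 : F) ≠ 0) {x : MulAut (POmega F Q₀)} (hord : orderOf x = 2) :
    ¬ IsFieldAutClassPOmegaMinus m x := by
  rintro ⟨a', b', ψ, σ, hab', hσ, hσa, hσb, hf⟩
  have : Nonempty (Idx m) := ⟨.inr 0⟩
  have hσ' : AutOrthField.SigmaInv (quadFormMinus m F a' b') σ := fun v => by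
    have := quadFormMinus_comp (m := m) (a := a') (b := b') (σ : F →+* F) v
    simp only [RingEquiv.coe_toRingHom, hσa, hσb] at this
    exact this
  have e := (AutOrthField.isFieldAutOf_iff hσ' _).1 hf
  have hpow : AutOrthField.mapP hσ' ^ 2 = 1 := by
    rw [← e]
    refine MulEquiv.ext fun k => ?_
    have h0 := pow_orderOf_eq_one x
    rw [hord] at h0
    have h1 := DFunLike.congr_fun h0 (ψ.symm k)
    rw [sq, MulAut.mul_apply, MulAut.one_apply] at h1
    rw [sq, MulAut.mul_apply, MulAut.one_apply]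
    show ψ (x (ψ.symm (ψ (x (ψ.symm k))))) = k
    rw [MulEquiv.symm_apply_apply, h1, MulEquiv.apply_symm_apply]
  rw [AutOrthField.mapP_pow] at hpow
  have hσ2 : σ.trans σ = RingEquiv.refl F := by
    have h1 := AutOrthField.eq_one_of_mapP_eq_one (hQm hab') (by simp; omega) _ hpow
    rw [sq] at h1
    exact h1
  have hmul : (σ : RingAut F) * σ = 1 := hσ2
  have hord2 : orderOf (σ : RingAut F) = 2 := orderOf_eq_prime (by rw [sq]; exact hmul) hσ
  have he := AutOrthField.exists_eqLocus (σ : RingAut F)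
  obtain ⟨r, hr⟩ : IsSquare (a' ^ 2 - 4 * b') := by
    obtain ⟨y, hy⟩ := (he (a' ^ 2 - 4 * b')).1 (by rw [map_sub, map_pow, map_mul, map_ofNat, hσa, hσb])
    exact hy ▸ AutOrthField.isSquare_map_of_two _ hord2 he y
  exact not_isSquare_disc h2 hab' ⟨r, hr⟩

end CfsgLib.AutOrthMinus.Balance
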