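import Mathlib

/-! Recognition of the small groups `2`, `4`, `2 × 2`, `D₈` from explicit elements. -/

set_option autoImplicit false

namespace CfsgLib.AutOrthMinus

variable {G : Type*} [Group G]

/-- A group whose elements are powers of an element of order `n`. -/
theorem equiv_zmod {n : ℕ} {g : G} (hg : orderOf g = n) (hall : ∀ x, x ∈ Subgroup.zpowers g) :
    Nonempty (G ≃* Multiplicative (ZMod n)) := by
  haveI : IsCyclic G := ⟨g, hall⟩
  have h : Nat.card G = n := by
    rw [← hg, ← Nat.card_zpowers, (Subgroup.eq_top_iff' _).2 hall, Subgroup.card_top]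
  exact ⟨((zmodCyclicMulEquiv ‹IsCyclic G›).symm).trans
    (AddEquiv.toMultiplicative (ZMod.ringEquivCongr h).toAddEquiv)⟩

lemma pow_val_add {n : ℕ} [NeZero n] {g : G} (hg : g ^ n = 1) (i j : ZMod n) :
    g ^ (i + j).val = g ^ i.val * g ^ j.val := by
  rw [← pow_add, ZMod.val_add]
  conv_rhs => rw [← Nat.mod_add_div (i.val + j.val) n, pow_add, pow_mul, hg, one_pow, mul_one]

/-- Two commuting elements give a map from a product of two cyclic groups. -/
def homProd {k n : ℕ} [NeZero k] [NeZero n] (x z : G) (hx : x ^ k = 1) (hz : z ^ n = 1) (hc : Commute x z) :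
    Multiplicative (ZMod k × ZMod n) →* G where
  toFun w := x ^ (Multiplicative.toAdd w).1.val * z ^ (Multiplicative.toAdd w).2.val
  map_one' := by simp
  map_mul' a b := by
    simp only [toAdd_mul, Prod.fst_add, Prod.snd_add, pow_val_add hx, pow_val_add hz]
    rw [mul_assoc, ← mul_assoc (x ^ _) (z ^ _) (z ^ _), (hc.pow_pow _ _).eq]
    simp only [mul_assoc]

/-- The group `2 × 2`. -/
theorem equiv_klein {x s : G} (hx : x * x = 1) (hs : s * s = 1) (hc : Commute x s) (hx1 : x ≠ 1) (hs1 : s ≠ 1)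
    (hsx : s ≠ x) (hall : ∀ g, g = 1 ∨ g = x ∨ g = s ∨ g = x * s) :
    Nonempty (G ≃* Multiplicative (ZMod 2 × ZMod 2)) := by
  let φ := homProd (k := 2) (n := 2) x s (by rw [sq, hx]) (by rw [sq, hs]) hc
  refine ⟨(MulEquiv.ofBijective φ ⟨?_, ?_⟩).symm⟩
  · refine (injective_iff_map_eq_one φ).2 ?_
    have hz : ∀ i : ZMod 2, i = 0 ∨ i = 1 := by decide
    intro w
    obtain ⟨⟨i, j⟩, rfl⟩ := Multiplicative.ofAdd.surjective w
    rcases hz i with rfl | rfl <;> rcases hz j with rfl | rfl <;> intro h <;>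
      simp [φ, homProd, show (1 : ZMod 2).val = 1 from rfl] at h
    · rfl
    · exact absurd h hs1
    · exact absurd h hx1
    · exact absurd (mul_left_cancel (h.trans hx.symm)) hsx
  · intro g
    rcases hall g with rfl | rfl | rfl | rfl
    · exact ⟨1, map_one φ⟩
    · exact ⟨Multiplicative.ofAdd (1, 0), by simp [φ, homProd, show (1 : ZMod 2).val = 1 from rfl]⟩
    · exact ⟨Multiplicative.ofAdd (0, 1), by simp [φ, homProd, show (1 : ZMod 2).val = 1 from rfl]⟩
    · exact ⟨Multiplicative.ofAdd (1, 1), by simp [φ, homProd, show (1 : ZMod 2).val = 1 from rfl]⟩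

/-- The dihedral group of order eight, from commuting involutions `x ≠ y` exchanged by an involution `s`. -/
theorem equiv_dihedral {x y s : G} (hx : x * x = 1) (hy : y * y = 1) (hs : s * s = 1) (hxy : Commute x y)
    (hconj : s * x * s = y) (hx1 : x ≠ 1) (hy1 : y ≠ 1) (hne : x ≠ y)
    (hout : s ≠ 1 ∧ s ≠ x ∧ s ≠ y ∧ s ≠ x * y)
    (hall : ∀ g, (g = 1 ∨ g = x ∨ g = y ∨ g = x * y) ∨ ∃ k, (k = 1 ∨ k = x ∨ k = y ∨ k = x * y) ∧ g = k * s) :
    Nonempty (G ≃* DihedralGroup 4) := by
  set r := x * s with hr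
  have hr2 : r ^ 2 = x * y := by
    rw [sq, hr, show x * s * (x * s) = x * (s * x * s) by group, hconj]
  have hxy2 : x * y * (x * y) = 1 := by
    rw [← mul_assoc, mul_assoc x y x, ← hxy.eq, ← mul_assoc, hx, one_mul, hy]
  have hr4 : r ^ 4 = 1 := by rw [show (4 : ℕ) = 2 + 2 from rfl, pow_add, hr2, hxy2]
  have hxr : x * r * x = r⁻¹ := by
    refine eq_inv_of_mul_eq_one_left ?_
    rw [hr, show x * (x * s) * x * (x * s) = (x * x) * s * (x * x) * s by group, hx, one_mul, mul_one, hs]
  have hxrn : ∀ n : ℕ, x * r ^ n * x = r⁻¹ ^ n := by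
    intro n
    induction n with
    | zero => simp [hx]
    | succ n ih => rw [pow_succ, pow_succ, ← ih, ← hxr]; simp only [mul_assoc]; rw [← mul_assoc x x, hx, one_mul]
  have hneg : ∀ i : ZMod 4, r ^ (-i).val = r⁻¹ ^ i.val := fun i => by
    rw [inv_pow, eq_inv_iff_mul_eq_one, ← pow_val_add hr4, neg_add_cancel, ZMod.val_zero, pow_zero]
  let f : DihedralGroup 4 → G := fun w => match w with
    | .r i => r ^ i.val
    | .sr i => x * r ^ i.val
  have hsub : ∀ i j : ZMod 4, r ^ (j - i).val = r⁻¹ ^ i.val * r ^ j.val := fun i j => by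
    rw [show j - i = -i + j by ring, pow_val_add hr4, hneg]
  let φ : DihedralGroup 4 →* G := MonoidHom.mk' f (by
    rintro (i | i) (j | j)
    · rw [DihedralGroup.r_mul_r]; exact pow_val_add hr4 i j
    · rw [DihedralGroup.r_mul_sr]
      show x * r ^ (j - i).val = r ^ i.val * (x * r ^ j.val)
      rw [hsub, ← hxrn]
      simp only [← mul_assoc, hx, one_mul]
    · rw [DihedralGroup.sr_mul_r]
      show x * r ^ (i + j).val = x * r ^ i.val * r ^ j.val
      rw [pow_val_add hr4, mul_assoc]
    · rw [DihedralGroup.sr_mul_sr]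
      show r ^ (j - i).val = x * r ^ i.val * (x * r ^ j.val)
      rw [hsub, ← hxrn]
      simp only [mul_assoc])
  refine ⟨(MulEquiv.ofBijective φ ⟨(injective_iff_map_eq_one φ).2 ?_, ?_⟩).symm⟩
  · obtain ⟨s1, s2, s3, s4⟩ := hout
    have hz : ∀ i : ZMod 4, i = 0 ∨ i = 1 ∨ i = 2 ∨ i = 3 := by decide
    have h3 : r ^ 3 = x * y * (x * s) := by rw [pow_succ, hr2]
    rintro (i | i) h <;> rcases hz i with rfl | rfl | rfl | rfl
    · rfl
    · change r ^ 1 = 1 at h
      exact absurd (mul_left_cancel (((pow_one r).symm.trans h).trans hx.symm)) s2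
    · change r ^ 2 = 1 at h
      rw [hr2] at h
      exact absurd (mul_left_cancel (h.trans hx.symm)) hne.symm
    · change r ^ 3 = 1 at h
      rw [h3, hxy.eq, mul_assoc, ← mul_assoc x x, hx, one_mul] at h
      exact absurd (mul_left_cancel (h.trans hy.symm)) s3
    · change x * r ^ 0 = 1 at h
      rw [pow_zero, mul_one] at h
      exact absurd h hx1
    · change x * r ^ 1 = 1 at h
      rw [pow_one, hr, ← mul_assoc, hx, one_mul] at h
      exact absurd h s1
    · change x * r ^ 2 = 1 at h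
      rw [hr2, ← mul_assoc, hx, one_mul] at h
      exact absurd h hy1
    · change x * r ^ 3 = 1 at h
      rw [h3, show x * (x * y * (x * s)) = (x * x) * (y * x) * s by group, hx, one_mul, ← hxy.eq] at h
      exact absurd (mul_left_cancel (h.trans hxy2.symm)) s4
  · have e1 : φ (.sr 0) = x := by show x * r ^ 0 = x; rw [pow_zero, mul_one]
    have e3 : φ (.sr 1) = s := by show x * r ^ 1 = s; rw [pow_one, hr, ← mul_assoc, hx, one_mul]
    have e2 : φ (.sr 2) = y := by show x * r ^ 2 = y; rw [hr2, ← mul_assoc, hx, one_mul]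
    have mx : x ∈ φ.range := ⟨_, e1⟩
    have my : y ∈ φ.range := ⟨_, e2⟩
    have ms : s ∈ φ.range := ⟨_, e3⟩
    intro g
    show g ∈ φ.range
    rcases hall g with h | ⟨k, hk, rfl⟩
    · rcases h with rfl | rfl | rfl | rfl
      exacts [one_mem _, mx, my, mul_mem mx my]
    · refine mul_mem ?_ ms
      rcases hk with rfl | rfl | rfl | rfl
      exacts [one_mem _, mx, my, mul_mem mx my]

end CfsgLib.AutOrthMinus
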