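import Cfsg.Agent.AutOrthMinus.Classes
import Cfsg.Agent.AutOrthMinus.SmallGroups
import Cfsg.Agent.AutOrth.Conformal
import Cfsg.Agent.AutOrthField.Lang
import Cfsg.Agent.Classical.Orth.Diag

/-! The similarities of the minus-type form in odd characteristic modulo `Omega` and the scalars, and
the images of the special orthogonal, class-preserving and conformal groups in `Aut (PΩ⁻)`. -/

set_option autoImplicit false
set_option linter.unusedSectionVars false

namespace CfsgLib.AutOrthMinus

open Cfsg Cfsg.Geo CfsgLib.OrthGeo CfsgLib.AutOrth Module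
open CfsgLib.AutOrthField (Sim scalarSim mult mult_spec mult_eq mult_scalarSim scalar_mulVec)
open CfsgLib.Classical.Orth (classHom refl classHom_fst classHom_snd classHom_refl_fst classHom_refl_snd
  not_exc_of_two_ne_zero ker_classHom residual exists_not_isSquare isSquare_mul_iff exists_q_eq)
open scoped Matrix MatrixGroups

universe u

variable {F : Type u} [Field F] {m : ℕ} {a b : F}

/-- The similarities acting as inner automorphisms. -/
noncomputable abbrev innS (m : ℕ) (a b : F) : Subgroup (Sim (quadFormMinus m F a b)) :=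
  (Inn (POmega F (quadFormMinus m F a b))).comap (conjS (quadFormMinus m F a b))

/-- Similarities modulo inner ones. -/
noncomputable abbrev prj (m : ℕ) (a b : F) :
    Sim (quadFormMinus m F a b) →* Sim (quadFormMinus m F a b) ⧸ innS m a b :=
  QuotientGroup.mk' (innS m a b)

/-- An isometry as a similarity. -/
abbrev toS (m : ℕ) (a b : F) : isometryGroup F (quadFormMinus m F a b) →* Sim (quadFormMinus m F a b) :=
  Subgroup.inclusion (isometry_le_similarity _)

lemma prj_eq_one_iff (g : Sim (quadFormMinus m F a b)) :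
    prj m a b g = 1 ↔ conjS _ g ∈ Inn (POmega F (quadFormMinus m F a b)) :=
  (QuotientGroup.eq_one_iff g).trans Subgroup.mem_comap

/-- The determinant of the polar form. -/
lemma det_gram : (Matrix.of fun i j : Idx m =>
    QuadraticMap.polar (quadFormMinus m F a b) (Pi.single i 1) (Pi.single j 1)).det = (-1) ^ m * (4 * b - a ^ 2) := by
  have e : (Matrix.of fun i j : Idx m =>
      QuadraticMap.polar (quadFormMinus m F a b) (Pi.single i 1) (Pi.single j 1)) =
      Matrix.fromBlocks (Matrix.fromBlocks 0 1 1 0) 0 0 !![2, a; a, 2 * b] := by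
    have hp : ∀ u v : Idx m → F, QuadraticMap.polar (quadFormMinus m F a b) u v =
        (∑ i, (u (.inl (.inl i)) * v (.inl (.inr i)) + u (.inl (.inr i)) * v (.inl (.inl i)))) +
        (u (.inr 0) * (2 * v (.inr 0) + a * v (.inr 1)) + u (.inr 1) * (a * v (.inr 0) + 2 * b * v (.inr 1))) := by
      intro u v
      simp only [QuadraticMap.polar, quadFormMinus, Pi.add_apply, add_mul, mul_add, Finset.sum_add_distrib,
        mul_comm (v (.inl (.inl _)))]
      ring
    ext i j
    rcases i with (i | i) | i <;> rcases j with (j | j) | j <;>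
      simp [hp, Pi.single_apply, Matrix.one_apply, eq_comm]
    all_goals fin_cases i <;> fin_cases j <;> simp
  have e2 : (Matrix.fromBlocks (0 : Matrix (Fin m) (Fin m) F) 1 1 (0 : Matrix (Fin m) (Fin m) F)).det = (-1) ^ m := by
    have e3 : Matrix.fromBlocks (0 : Matrix (Fin m) (Fin m) F) 1 1 (0 : Matrix (Fin m) (Fin m) F) * Matrix.fromBlocks 1 1 (0 : Matrix (Fin m) (Fin m) F) 1 =
        Matrix.fromBlocks 0 1 1 1 := by simp [Matrix.fromBlocks_multiply]
    have e4 := congrArg Matrix.det e3
    rw [Matrix.det_mul, Matrix.det_fromBlocks_zero₂₁, Matrix.det_fromBlocks_one₂₂, Matrix.det_one, one_mul,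
      mul_one, zero_sub, Matrix.mul_one, Matrix.det_neg, Matrix.det_one, mul_one, Fintype.card_fin] at e4
    exact e4
  rw [e, Matrix.det_fromBlocks_zero₂₁, e2, Matrix.det_fin_two]
  simp
  ring

/-- The discriminant is a square exactly when `m` is even and `q ≡ 3 (mod 4)`. -/
lemma isSquare_det_iff [Fintype F] (h2 : (2 : F) ≠ 0)
    (hab : ∀ x y : F, x ^ 2 + a * x * y + b * y ^ 2 = 0 → x = 0 ∧ y = 0) :
    IsSquare (((-1 : F)) ^ m * (4 * b - a ^ 2)) ↔ (Even m ∧ Fintype.card F % 4 = 3) := by
  have hns := not_isSquare_disc h2 hab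
  have hd : a ^ 2 - 4 * b ≠ 0 := fun h => hns (h ▸ IsSquare.zero)
  have e : (-1 : F) ^ m * (4 * b - a ^ 2) = (-1) ^ (m + 1) * (a ^ 2 - 4 * b) := by ring
  rw [e, isSquare_mul_iff (pow_ne_zero _ (neg_ne_zero.2 one_ne_zero)) hd, iff_false_right hns]
  rcases Nat.even_or_odd m with h | h
  · rw [pow_succ, h.neg_one_pow, one_mul, FiniteField.isSquare_neg_one_iff]
    simp [h]
  · rw [(Nat.even_add_one.2 (Nat.not_even_iff_odd.2 h)).neg_one_pow]
    simp [IsSquare.one, Nat.not_even_iff_odd.2 h]

/-- `t` says whether `g` preserves the classes over every splitting field. -/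
def HasPar (a b : F) (g : GL (Idx m) F) (t : Prop) : Prop :=
  ∀ (K : Type u) [Field K] (f : F →+* K) (θ : K), θ ^ 2 + f a * θ + f b = 0 → ParVal (a := a) (b := b) f θ g t

lemma HasPar.mul (hd : 4 * b - a ^ 2 ≠ 0) {g h : GL (Idx m) F} {s t : Prop} (hg : HasPar a b g s)
    (hh : HasPar a b h t) : HasPar a b (g * h) (s ↔ t) :=
  fun K _ f θ hθ => (hg K f θ hθ).mul hd hθ (hh K f θ hθ)

section main

variable [Fintype F] (h2 : (2 : F) ≠ 0) (hm : 2 ≤ m)
  (hab : ∀ x y : F, x ^ 2 + a * x * y + b * y ^ 2 = 0 → x = 0 ∧ y = 0)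
include h2 hm hab

lemma hexc : ¬ (Nat.card F = 2 ∧ Fintype.card (Idx m) = 4) := not_exc_of_two_ne_zero h2

/-- The spinor and determinant classes of an isometry. -/
noncomputable abbrev cls : isometryGroup F (quadFormMinus m F a b) →* Multiplicative (ZMod 2) × Multiplicative (ZMod 2) :=
  classHom (Classical.Orth.isNondegQF_quadFormMinus m a b hab) (hexc h2 hm hab)

/-- Minus the identity. -/
noncomputable def negI : isometryGroup F (quadFormMinus m F a b) :=
  ⟨Matrix.GeneralLinearGroup.scalar (Idx m) (-1), mem_isometryGroup.2 fun v => by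
    rw [scalar_mulVec, (Classical.Orth.isNondegQF_quadFormMinus m a b hab).smul, Units.val_neg, Units.val_one,
      neg_one_sq, one_mul]⟩

lemma toS_negI : toS m a b (negI (m := m) hab) =
    scalarSim (Classical.Orth.isNondegQF_quadFormMinus m a b hab) (-1) := rfl

lemma cls_negI_fst : (cls h2 hm hab (negI (m := m) hab)).1 = 1 := by
  set hQ := Classical.Orth.isNondegQF_quadFormMinus m a b hab
  rw [classHom_fst]
  by_contra h
  have e := Classical.Orth.det_eq_neg_one_pow hQ (hexc h2 hm hab) (negI (m := m) hab).2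
  rw [(Nat.not_even_iff_odd.1 h).neg_one_pow] at e
  change (Matrix.GeneralLinearGroup.scalar (Idx m) (-1 : Fˣ) : Matrix (Idx m) (Idx m) F).det = -1 at e
  rw [Matrix.GeneralLinearGroup.coe_scalar, Matrix.scalar_apply, Matrix.det_diagonal, Finset.prod_const,
    Finset.card_univ, Units.val_neg, Units.val_one, Even.neg_one_pow ⟨m + 1, by simp; omega⟩] at e
  exact h2 (by linear_combination e)

lemma cls_negI_snd : (cls h2 hm hab (negI (m := m) hab)).2 = 1 ↔ (Even m ∧ Fintype.card F % 4 = 3) := by
  set hQ := Classical.Orth.isNondegQF_quadFormMinus m a b hab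
  have key := Classical.Orth.neg_one_mem_omega_iff hQ h2 (ι := Idx m) ⟨m + 1, by simp; omega⟩
  rw [det_gram, isSquare_det_iff h2 hab] at key
  rw [← key]
  have e : ((negI (m := m) hab : GL (Idx m) F) : Matrix (Idx m) (Idx m) F) = -1 := by
    change (Matrix.GeneralLinearGroup.scalar (Idx m) (-1 : Fˣ) : Matrix (Idx m) (Idx m) F) = -1
    rw [Matrix.GeneralLinearGroup.coe_scalar, Units.val_neg, Units.val_one, map_neg, map_one]
  constructor
  · intro h
    refine ⟨negI (m := m) hab, ?_, e⟩
    rw [← ker_classHom hQ (hexc h2 hm hab), MonoidHom.mem_ker]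
    exact Prod.ext (cls_negI_fst h2 hm hab) h
  · rintro ⟨g, hg, hgM⟩
    obtain rfl : g = negI (m := m) hab := Subtype.ext (Units.ext (hgM.trans e.symm))
    rw [← ker_classHom hQ (hexc h2 hm hab), MonoidHom.mem_ker] at hg
    exact (Prod.ext_iff.1 hg).2

/-- The similarities acting as inner automorphisms are scalars times `Omega`. -/
lemma exists_of_prj_eq_one {g : Sim (quadFormMinus m F a b)} (hg : prj m a b g = 1) :
    ∃ (u : Fˣ) (k : Omega F (quadFormMinus m F a b)),
      g = scalarSim (Classical.Orth.isNondegQF_quadFormMinus m a b hab) u * toS m a b k := by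
  set hQ := Classical.Orth.isNondegQF_quadFormMinus m a b hab
  obtain ⟨x, hx⟩ := (prj_eq_one_iff g).1 hg
  obtain ⟨k, rfl⟩ := QuotientGroup.mk_surjective x
  have h1 : conjS _ (g * (omegaToS _ k)⁻¹) = 1 := by rw [map_mul, map_inv, conjS_omega]; exact mul_inv_eq_one.2 hx.symm
  obtain ⟨c, hc⟩ := scalar_of_conjS_eq_one hQ (by simp; omega) h1
  have hc0 : c ≠ 0 := by
    rintro rfl
    have h := hc (Pi.single (.inr 0) 1)
    rw [zero_smul] at h
    have h' := congrArg (fun z => (((g * (omegaToS _ k)⁻¹)⁻¹ : Sim _) : GL (Idx m) F).val *ᵥ z) h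
    simp only [Matrix.mulVec_zero, Matrix.mulVec_mulVec, Subgroup.coe_inv, Units.inv_mul, Matrix.one_mulVec] at h'
    simpa using congrFun h' (.inr 0)
  refine ⟨Units.mk0 c hc0, k, ?_⟩
  rw [show toS m a b (k : isometryGroup F (quadFormMinus m F a b)) = omegaToS _ k from rfl, ← mul_inv_eq_iff_eq_mul]
  exact Subtype.ext (gl_ext fun x => by rw [hc, AutOrthField.coe_scalarSim, scalar_mulVec, Units.val_mk0])

lemma prj_scalar (u : Fˣ) :
    prj m a b (scalarSim (Classical.Orth.isNondegQF_quadFormMinus m a b hab) u) = 1 := by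
  rw [prj_eq_one_iff, conjS_eq_one_of_scalar (c := (u : F)) fun x => by rw [AutOrthField.coe_scalarSim, scalar_mulVec]]
  exact one_mem _

lemma prj_omega (k : isometryGroup F (quadFormMinus m F a b)) (hk : k ∈ Omega F (quadFormMinus m F a b)) :
    prj m a b (toS m a b k) = 1 := by
  rw [prj_eq_one_iff, show toS m a b k = omegaToS _ ⟨k, hk⟩ from rfl, conjS_omega]
  exact ⟨_, rfl⟩

lemma prj_toS_congr {g h : isometryGroup F (quadFormMinus m F a b)} (e : cls h2 hm hab g = cls h2 hm hab h) :
    prj m a b (toS m a b g) = prj m a b (toS m a b h) := by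
  have hk : g⁻¹ * h ∈ Omega F (quadFormMinus m F a b) := by
    rw [← ker_classHom (Classical.Orth.isNondegQF_quadFormMinus m a b hab) (hexc h2 hm hab), MonoidHom.mem_ker,
      map_mul, map_inv, e, inv_mul_cancel]
  have := prj_omega h2 hm hab _ hk
  rwa [map_mul, map_mul, map_inv, map_inv, inv_mul_eq_one] at this

lemma cls_of_prj_eq_one {h : isometryGroup F (quadFormMinus m F a b)} (hh : prj m a b (toS m a b h) = 1) :
    cls h2 hm hab h = 1 ∨ cls h2 hm hab h = cls h2 hm hab (negI (m := m) hab) := by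
  set hQ := Classical.Orth.isNondegQF_quadFormMinus m a b hab
  obtain ⟨u, k, e⟩ := exists_of_prj_eq_one h2 hm hab hh
  have hu : ((u : F)) ^ 2 = 1 := by
    have h1 := mem_isometryGroup.1 (h : isometryGroup F (quadFormMinus m F a b)).2 (Pi.single (.inr 0) 1)
    have e' : (h : GL (Idx m) F) = Matrix.GeneralLinearGroup.scalar (Idx m) u * ((k : isometryGroup F (quadFormMinus m F a b)) : GL (Idx m) F) :=
      congrArg Subtype.val e
    rw [e', Units.val_mul, ← Matrix.mulVec_mulVec, scalar_mulVec, hQ.smul, mem_isometryGroup.1 (k : isometryGroup F (quadFormMinus m F a b)).2] at h1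
    have h0 : quadFormMinus m F a b (Pi.single (.inr 0) 1) = 1 := by simp [quadFormMinus]
    rwa [h0, mul_one] at h1
  have hk : cls h2 hm hab (k : isometryGroup F (quadFormMinus m F a b)) = 1 := by
    rw [← MonoidHom.mem_ker, ker_classHom]; exact k.2
  rcases sq_eq_one_iff.1 hu with hu | hu
  · left
    obtain rfl : h = k := by
      refine Subtype.ext ?_
      have e' := congrArg Subtype.val e
      simp only [show u = 1 from Units.ext hu, map_one, one_mul] at e'
      exact e'
    exact hk
  · right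
    obtain rfl : h = negI (m := m) hab * k := by
      refine Subtype.ext ?_
      have e' := congrArg Subtype.val e
      rw [show u = -1 from Units.ext (by simpa using hu)] at e'
      exact e'
    rw [map_mul, hk, mul_one]

lemma hasPar_isometry (h : isometryGroup F (quadFormMinus m F a b)) :
    HasPar a b (h : GL (Idx m) F) ((cls h2 hm hab h).1 = 1) := fun K _ f θ hθ => by
  rw [classHom_fst]
  exact parVal_isometry (Classical.Orth.four_mul_sub_sq_ne_zero hab) hθ
    (Classical.Orth.isNondegQF_quadFormMinus m a b hab) (hexc h2 hm hab) h.2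

lemma hasPar_scalar (u : Fˣ) : HasPar a b (Matrix.GeneralLinearGroup.scalar (Idx m) u) True := fun K _ f θ hθ => by
  rw [show Matrix.GeneralLinearGroup.scalar (Idx m) u = scalarGL u from gl_ext fun x => by
    rw [scalar_mulVec, scalarGL_mulVec]]
  exact parVal_scalar (Classical.Orth.four_mul_sub_sq_ne_zero hab) hθ u

/-- Generators of the similarities modulo inner ones: reflections `x`, `y` with square and non-square norm,
and a similarity `s` with non-square multiplier. -/
theorem exists_gens :
    ∃ (x y : isometryGroup F (quadFormMinus m F a b)) (s : Sim (quadFormMinus m F a b)),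
      cls h2 hm hab x = (Multiplicative.ofAdd 1, 1) ∧
      cls h2 hm hab y = (Multiplicative.ofAdd 1, Multiplicative.ofAdd 1) ∧
      prj m a b s * prj m a b s = 1 ∧
      prj m a b s * prj m a b (toS m a b x) * prj m a b s = prj m a b (toS m a b y) ∧
      HasPar a b (s : GL (Idx m) F) (Even (m + 1)) ∧
      (∀ h, prj m a b (toS m a b h) * prj m a b s ≠ 1) ∧
      ∀ g : Sim (quadFormMinus m F a b), ∃ h, (prj m a b g = prj m a b (toS m a b h) ∧
          ∃ u, g = scalarSim (Classical.Orth.isNondegQF_quadFormMinus m a b hab) u * toS m a b h) ∨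
        (prj m a b g = prj m a b (toS m a b h) * prj m a b s ∧
          ∃ u, g = scalarSim (Classical.Orth.isNondegQF_quadFormMinus m a b hab) u * toS m a b h * s) := by
  set hQ := Classical.Orth.isNondegQF_quadFormMinus m a b hab
  have hne : ∃ v, quadFormMinus m F a b v ≠ 0 := ⟨Pi.single (.inr 0) 1, by simp [quadFormMinus]⟩
  obtain ⟨ε, hε⟩ := exists_not_isSquare (F := F) h2
  have hε0 : ε ≠ 0 := by rintro rfl; exact hε IsSquare.zero
  obtain ⟨α, hα⟩ := exists_q_eq (Classical.Orth.isNondegQF_quadFormMinus 0 a b hab) (by simp) hε0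
  have hα' : α (.inr 0) ^ 2 + a * α (.inr 0) * α (.inr 1) + b * α (.inr 1) ^ 2 = ε := by
    simpa [quadFormMinus] using hα
  let s : Sim (quadFormMinus m F a b) :=
    ⟨simGL _ _ ε hε0 hα', ⟨Units.mk0 ε hε0, simGL_similarity _ _ ε hε0 hα'⟩⟩
  set e0 : Idx m → F := Pi.single (.inr 0) 1 with he0
  have hq0 : quadFormMinus m F a b e0 = 1 := by simp [he0, quadFormMinus]
  have hqe : quadFormMinus m F a b e0 ≠ 0 := by rw [hq0]; exact one_ne_zero
  have hw : quadFormMinus m F a b (((s : GL (Idx m) F) : Matrix (Idx m) (Idx m) F) *ᵥ e0) = ε := by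
    rw [show ((s : GL (Idx m) F) : Matrix (Idx m) (Idx m) F) *ᵥ e0 = _ from rfl, simGL_similarity, hq0, mul_one]
  have hw0 : quadFormMinus m F a b (((s : GL (Idx m) F) : Matrix (Idx m) (Idx m) F) *ᵥ e0) ≠ 0 := by
    rw [hw]; exact hε0
  have hne2 : ∀ z : Multiplicative (ZMod 2), z ≠ 1 → z = Multiplicative.ofAdd 1 := by decide
  have hs2 : prj m a b s * prj m a b s = 1 := by
    rw [← map_mul, show s * s = scalarSim hQ (Units.mk0 ε hε0) from Subtype.ext (gl_ext fun v => by
      rw [Subgroup.coe_mul, Units.val_mul, AutOrthField.coe_scalarSim, scalar_mulVec, Units.val_mk0]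
      show (simMat m a b _ _ ε * simMat m a b _ _ ε) *ᵥ v = _
      rw [simMat_sq a b _ _ ε hα', Matrix.smul_mulVec, Matrix.one_mulVec])]
    exact prj_scalar h2 hm hab _
  have hmult : ∀ g, mult hne (toS m a b g) = 1 := fun g => Units.ext (mult_eq hne _ _ fun v => by
    rw [Units.val_one, one_mul]; exact mem_isometryGroup.1 g.2 v)
  have hms : (mult hne s : F) = ε := mult_eq hne _ _ (simGL_similarity _ _ ε hε0 hα')
  refine ⟨refl hQ hqe, refl hQ hw0, s, ?_, ?_, hs2, ?_, ?_, ?_, ?_⟩
  · exact Prod.ext (classHom_refl_fst hQ _ hqe) ((classHom_refl_snd hQ _ hqe).2 (by rw [hq0]; exact IsSquare.one))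
  · exact Prod.ext (classHom_refl_fst hQ _ hw0)
      (hne2 _ fun h => hε (by rw [← hw]; exact (classHom_refl_snd hQ _ hw0).1 h))
  · have e : toS m a b (refl hQ hw0) = s * toS m a b (refl hQ hqe) * s⁻¹ := by
      refine eq_mul_inv_iff_mul_eq.2 (Subtype.ext (gl_ext fun v => ?_))
      simp only [Subgroup.coe_mul, Units.val_mul, ← Matrix.mulVec_mulVec]
      have hb : ∀ w z, bform hQ (((s : GL (Idx m) F) : Matrix (Idx m) (Idx m) F) *ᵥ w)
          (((s : GL (Idx m) F) : Matrix (Idx m) (Idx m) F) *ᵥ z) = ε * bform hQ w z := fun w z => by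
        have h1 : ∀ y, quadFormMinus m F a b (((s : GL (Idx m) F) : Matrix (Idx m) (Idx m) F) *ᵥ y) =
            ε * quadFormMinus m F a b y := simGL_similarity _ _ ε hε0 hα'
        have h3 := q_add hQ w z
        have h4 := q_add hQ (((s : GL (Idx m) F) : Matrix (Idx m) (Idx m) F) *ᵥ w) (((s : GL (Idx m) F) : Matrix (Idx m) (Idx m) F) *ᵥ z)
        rw [← Matrix.mulVec_add, h1, h1, h1, h3] at h4
        linear_combination -h4
      show ((reflection hQ hw0 : GL (Idx m) F) : Matrix (Idx m) (Idx m) F) *ᵥ _ =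
        _ *ᵥ (((reflection hQ hqe : GL (Idx m) F) : Matrix (Idx m) (Idx m) F) *ᵥ v)
      rw [reflection_mulVec, reflection_mulVec, hb, hw, hq0, Matrix.mulVec_sub, Matrix.mulVec_smul,
        inv_one, one_mul, ← mul_assoc, inv_mul_cancel₀ hε0, one_mul]
    rw [e, map_mul, map_mul, map_inv, ← eq_inv_of_mul_eq_one_left hs2]
  · exact fun K _ f θ hθ => parVal_sim (Classical.Orth.four_mul_sub_sq_ne_zero hab) hθ hab _ _ ε hε0 hα'
  · intro h e
    rw [← map_mul] at e
    obtain ⟨u, k, e'⟩ := exists_of_prj_eq_one h2 hm hab e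
    have := congrArg (mult hne) e'
    rw [map_mul, map_mul, hmult, hmult, mult_scalarSim, one_mul, mul_one] at this
    refine hε ⟨u, ?_⟩
    rw [← hms, this, Units.val_pow_eq_pow_val, sq]
  · intro g
    have key : ∀ g' : Sim (quadFormMinus m F a b), IsSquare (mult hne g' : F) →
        ∃ u h, g' = scalarSim hQ u * toS m a b h := by
      rintro g' ⟨r, hr⟩
      have hr0 : r ≠ 0 := by rintro rfl; simp at hr
      refine ⟨Units.mk0 r hr0, ⟨((scalarSim hQ (Units.mk0 r hr0))⁻¹ * g').1, mem_isometryGroup.2 fun v => ?_⟩,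
        (mul_inv_cancel_left _ _).symm⟩
      have hq := mult_spec hne ((scalarSim hQ (Units.mk0 r hr0))⁻¹ * g') v
      rw [map_mul, map_inv, mult_scalarSim, Units.val_mul, Units.val_inv_eq_inv_val, Units.val_pow_eq_pow_val,
        Units.val_mk0, hr, sq, inv_mul_cancel₀ (mul_ne_zero hr0 hr0), one_mul] at hq
      exact hq
    by_cases hg : IsSquare (mult hne g : F)
    · obtain ⟨u, h, rfl⟩ := key g hg
      exact ⟨h, Or.inl ⟨by rw [map_mul, prj_scalar h2 hm hab, one_mul], u, rfl⟩⟩
    · obtain ⟨u, h, e⟩ := key (g * s⁻¹) (by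
        rw [map_mul, map_inv, Units.val_mul, Units.val_inv_eq_inv_val, hms]
        exact Classical.Orth.isSquare_mul_of_not hg fun h' => hε (isSquare_inv.1 h'))
      rw [mul_inv_eq_iff_eq_mul] at e
      exact ⟨h, Or.inr ⟨by rw [e, map_mul, map_mul, prj_scalar h2 hm hab, one_mul], u, e⟩⟩

end main

end CfsgLib.AutOrthMinus
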